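import Cfsg.Agent.R2.T1.T2p.T2e
import Cfsg.Agent.R2.T1.Pat2.Ct
import Cfsg.Agent.R2.T1.Inf.Cnt

/-!
# T1 (S5771, p = 2): the pattern (20, 32, 16, 20, *) for `n ≥ 10` (helper25)

* `n_le` : `n ≤ 22`;
* `t2_false`.
-/

set_option autoImplicit false
set_option maxRecDepth 100000

namespace Cfsg.Agent.R2.T1.T2p

open Cfsg Cfsg.Lie Module Equiv Equiv.Perm
open Cfsg.Agent.H943.E7V.Block (D1 rho)
open Cfsg.Agent.H952.F4 (ev es MaxAlt)
open Cfsg.Agent.R2.T1 Cfsg.Agent.R2.T1.Art Cfsg.Agent.R2.T1.Odd Cfsg.Agent.R2.T1.Mu2 Cfsg.Agent.R2.PX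
open Cfsg.Agent.R2.T1.Msk (P_fix P_val three_ne)
open Cfsg.Agent.R2.T1.Pat2 (ct_P)

universe u

section nle
variable {F : Type u} [Field F] {n : ℕ} [NeZero n] {ψ : ↥(alternatingGroup (Fin n)) →* Gh F}

/-- **`n ≤ 22`** -/
theorem n_le (h2 : (2 : F) = 0) (hn : 10 ≤ n) (h5 : ev (V F (ψ (P n lx))) 1 = 16) {o p : Fin n}
    (ho : o.val = 0) (hp : p.val = 1) {u : D1 → F} (hu : u ∈ US ψ o p) (hu0 : u ≠ 0)
    (hT : ∀ i j k : Fin n, i ≠ j → j ≠ k → i ≠ k → W ψ o p u i j + W ψ o p u j k + W ψ o p u k i = 0) : n ≤ 22 := by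
  have hop : o ≠ p := fun h => by rw [h, hp] at ho; omega
  have hval : ∀ x y : Fin n, x.val ≠ y.val → x ≠ y := fun x y h h' => h (by rw [h'])
  have hsym : ∀ i j : Fin n, i ≠ j → W ψ o p u i j = W ψ o p u j i := fun i j h => W_symm h2 (by omega) hT h
  have hne : ∀ i j : Fin n, i ≠ j → W ψ o p u i j ≠ 0 := by
    intro i j hij h
    obtain ⟨a, a1, a2⟩ := exists_even2 (n := n) (by omega) hop hij
    have h1 := W_eq hu a1 a2
    rw [h] at h1
    apply hu0
    have h3 : V F (ψ a)⁻¹ (V F (ψ a) u) = u := by rw [← V_mul, inv_mul_cancel, V_one]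
    rw [← h3, h1, map_zero]
  set p5 : Fin n := ⟨5, by omega⟩ with hp5
  let w : Fin (n - 6) → Fin n := fun k => ⟨k.val + 6, by omega⟩
  let v : Fin (n - 6) → (D1 → F) := fun k => W ψ o p u p5 (w k)
  have hw5 : ∀ k, p5 ≠ w k := fun k => hval _ _ (by show 5 ≠ k.val + 6; omega)
  have hmem : ∀ k, v k ∈ es (V F (ψ (P n lx))) 1 := by
    intro k
    rw [mem_es]
    show V F (ψ (P n lx)) (W ψ o p u p5 (w k)) = W ψ o p u p5 (w k)
    rw [W_act (by omega) hop hu _ (hw5 k), P_fix (m := 5) (by omega) (by decide) (by show 5 ≤ 5; exact le_rfl),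
      P_fix (m := 5) (by omega) (by decide) (by show 5 ≤ k.val + 6; omega)]
  have hli : LinearIndependent F v := by
    rw [linearIndependent_iff']
    intro s g hs i hi
    have hio : w i ≠ o := hval _ _ (by rw [ho]; show i.val + 6 ≠ 0; omega)
    have hip : w i ≠ p := hval _ _ (by rw [hp]; show i.val + 6 ≠ 1; omega)
    have hev : swap (w i) o * swap o p ∈ alternatingGroup (Fin n) := by
      rw [mem_alternatingGroup, Perm.sign_mul, sign_swap hio, sign_swap hop]
      decide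
    set γ : ↥(alternatingGroup (Fin n)) := ⟨swap (w i) o * swap o p, hev⟩ with hγ
    have hγi : (γ : Perm (Fin n)) (w i) = o := by
      show swap (w i) o (swap o p (w i)) = o
      rw [swap_apply_of_ne_of_ne hio hip, swap_apply_left]
    have hγj : ∀ j : Fin n, j ≠ w i → j ≠ o → j ≠ p → (γ : Perm (Fin n)) j = j := by
      intro j h1 h3 h4
      show swap (w i) o (swap o p j) = j
      rw [swap_apply_of_ne_of_ne h3 h4, swap_apply_of_ne_of_ne h1 h3]
    have hγ5 : (γ : Perm (Fin n)) p5 = p5 := hγj _ (hw5 i) (hval _ _ (by rw [ho]; show 5 ≠ 0; norm_num))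
      (hval _ _ (by rw [hp]; show 5 ≠ 1; norm_num))
    have h1 : ∑ j ∈ s, g j • (v j - V F (ψ γ) (v j)) = 0 := by
      have h3 : ∑ j ∈ s, g j • (v j - V F (ψ γ) (v j)) = ∑ j ∈ s, g j • v j - V F (ψ γ) (∑ j ∈ s, g j • v j) := by
        rw [map_sum, ← Finset.sum_sub_distrib]
        refine Finset.sum_congr rfl fun j _ => ?_
        rw [map_smul, smul_sub]
      rw [h3, hs, map_zero, sub_zero]
    have h4 : ∀ j ∈ s, j ≠ i → g j • (v j - V F (ψ γ) (v j)) = 0 := by
      intro j _ hji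
      have h5' : w j ≠ w i := hval _ _ (by
        show j.val + 6 ≠ i.val + 6
        have : j.val ≠ i.val := fun h => hji (Fin.ext h)
        omega)
      have h6 : V F (ψ γ) (v j) = v j := by
        show V F (ψ γ) (W ψ o p u p5 (w j)) = W ψ o p u p5 (w j)
        rw [W_act (by omega) hop hu _ (hw5 j), hγ5, hγj _ h5' (hval _ _ (by rw [ho]; show j.val + 6 ≠ 0; omega))
          (hval _ _ (by rw [hp]; show j.val + 6 ≠ 1; omega))]
      rw [h6, sub_self, smul_zero]
    rw [Finset.sum_eq_single_of_mem i hi h4] at h1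
    rcases smul_eq_zero.1 h1 with h5' | h5'
    · exact h5'
    · exfalso
      have h6 : V F (ψ γ) (v i) = W ψ o p u p5 o := by
        show V F (ψ γ) (W ψ o p u p5 (w i)) = _
        rw [W_act (by omega) hop hu _ (hw5 i), hγ5, hγi]
      have h7 : W ψ o p u p5 (w i) = W ψ o p u p5 o := by
        rw [h6] at h5'
        exact sub_eq_zero.1 h5'
      have h50 : p5 ≠ o := hval _ _ (by rw [ho]; show 5 ≠ 0; norm_num)
      have h8 := hT p5 (w i) o (hw5 i) hio h50
      rw [h7, hsym o p5 h50.symm] at h8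
      apply hne (w i) o hio
      have h9 : W ψ o p u p5 o + W ψ o p u (w i) o + W ψ o p u p5 o = W ψ o p u (w i) o := by
        rw [add_comm (W ψ o p u p5 o) (W ψ o p u (w i) o), add_assoc, add_self_zero h2, add_zero]
      rw [← h9]
      exact h8
  have h1 := finrank_span_eq_card hli
  have h3 : Submodule.span F (Set.range v) ≤ es (V F (ψ (P n lx))) 1 := by
    rw [Submodule.span_le]
    rintro _ ⟨k, rfl⟩
    exact hmem k
  have h4 := Submodule.finrank_mono h3
  have h6 : finrank F ↥(es (V F (ψ (P n lx))) 1) = 16 := h5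
  rw [h1, h6, Fintype.card_fin] at h4
  omega

end nle

section main
variable {F : Type u} [Field F] {n : ℕ} {H : Subgroup ↥(chevE7.group F)}
  {φ : ↥(alternatingGroup (Fin n)) →* ↥(chevE7.group F)} {ψ : ↥(alternatingGroup (Fin n)) →* Gh F}

/-- **the pattern (20, 32, 16, *, 12 or less) for `n ≥ 10`** -/
theorem t2_false [Finite F] (h2 : (2 : F) = 0) (hn : 10 ≤ n) (hM : MaxAlt H n φ) (hψ : Lift φ ψ)
    (hinj : ∀ a, ad F (ψ a) = 1 → a = 1)
    (h3 : ∀ a : ↥(alternatingGroup (Fin n)), (a : Perm (Fin n)).cycleType = {3} → ev (V F (ψ a)) 1 = 20)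
    (h33 : ∀ a : ↥(alternatingGroup (Fin n)), (a : Perm (Fin n)).cycleType = {3, 3} → ev (V F (ψ a)) 1 = 32)
    (h5 : ∀ a : ↥(alternatingGroup (Fin n)), (a : Perm (Fin n)).cycleType = {5} → ev (V F (ψ a)) 1 = 16)
    (h53 : ∀ a : ↥(alternatingGroup (Fin n)), (a : Perm (Fin n)).cycleType = {5, 3} → ev (V F (ψ a)) 1 ≤ 12)
    (hcard : n ≤ 22 → 4 * Nat.card ↥H < Nat.card F ^ 76)
    (hts : n ≤ 22 → ∀ S : Submodule F (D1 → F), Stab (V F) H S → S ≠ ⊥ → (∀ x ∈ S, Sing x) → False) : False := by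
  have : NeZero n := ⟨by omega⟩
  have hn8 : 8 ≤ n := by omega
  have hn9 : 9 ≤ n := by omega
  have h3' := three_ne h2
  have h2' : ∀ w : D1 → F, w + w = 0 := fun w => by rw [← two_smul F w, h2, zero_smul]
  have hct : ∀ {l : List (ℕ × ℕ)}, vl 8 l = true → ((P n l : ↥(alternatingGroup (Fin n))) : Perm (Fin n)).cycleType =
      (pm 8 l).cycleType := fun h => ct_P hn8 h
  let ρ : Representation F ↥(alternatingGroup (Fin n)) (D1 → F) := MonoidHom.comp (V F) ψ
  have e3 : ev (V F (ψ (P n l3))) 1 = 20 := h3 _ (by rw [hct (by decide)]; decide +kernel)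
  have e33 : ev (V F (ψ (P n l33))) 1 = 32 := h33 _ (by rw [hct (by decide)]; decide +kernel)
  have ela : ev (V F (ψ (P n la))) 1 = 20 := h3 _ (by rw [hct (by decide)]; decide +kernel)
  have e567 : ev (V F (ψ (P n l567))) 1 = 20 := h3 _ (by rw [hct (by decide)]; decide +kernel)
  have exx : ev (V F (ψ (P n lxx))) 1 = 32 := h33 _ (by rw [hct (by decide)]; decide +kernel)
  have ex : ev (V F (ψ (P n lx))) 1 = 16 := h5 _ (by rw [hct (by decide)]; decide +kernel)
  have e53 : ev (V F (ψ (P n l53))) 1 ≤ 12 := h53 _ (by rw [hct (by decide)]; decide +kernel)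
  have hE1 := dimE (ψ := ψ) h3' hn9 e3 e33 chkG_E1 chkC_E1 len_E1 cnt_E1
  have hE2 := dimE (ψ := ψ) h3' hn9 e3 e33 chkG_E2 chkC_E2 len_E2 cnt_E2
  have hE3 := dimE (ψ := ψ) h3' hn9 e3 e33 chkG_E3 chkC_E3 len_E3 cnt_E3
  have hB := ev_nineB (ψ := ψ) h3' hinj hn9 e3 e33
  obtain ⟨u0, hu00, hu0f, hu0b⟩ := exists_u (ρ := ρ) h3' h2' hn ela e567 hE1 hE2 hE3 hB e53
  set o : Fin n := ⟨0, by omega⟩ with ho
  set p : Fin n := ⟨1, by omega⟩ with hp
  set q : Fin n := ⟨2, by omega⟩ with hq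
  have hop : o ≠ p := by simp [ho, hp]
  have hoq : o ≠ q := by simp [ho, hq]
  have hpq : p ≠ q := by simp [hp, hq]
  -- the space of all such vectors
  let U' : Submodule F (D1 → F) := US ψ o p ⊓ Z3 (V F (ψ (P n lb)))
  have hU0 : U' ≠ ⊥ := by
    intro h
    apply hu00
    have h1 : u0 ∈ U' := by
      refine ⟨?_, mem_Z3.2 hu0b⟩
      intro a h6 h7
      apply hu0f
      intro i hi
      have h8 : i.val = 0 ∨ i.val = 1 := by omega
      rcases h8 with h8 | h8
      · rw [show i = o from Fin.ext h8]; exact h6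
      · rw [show i = p from Fin.ext h8]; exact h7
    rw [h] at h1
    exact (Submodule.mem_bot F).1 h1
  obtain ⟨u, hu, hune, hH⟩ := exists_vec h2 (by omega) hM hψ hop U' hU0 (by
    intro t0 ht2 ht w hw
    obtain ⟨hw1, hw2⟩ := hw
    have hcs : ∀ a : ↥(alternatingGroup (Fin n)), swap o p * (a : Perm (Fin n)) * swap o p ∈ alternatingGroup (Fin n) := by
      intro a
      rw [mem_alternatingGroup, Perm.sign_mul, Perm.sign_mul, mem_alternatingGroup.1 a.2, mul_one, sign_swap hop]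
      decide
    have hss : ∀ a : Perm (Fin n), swap o p * (swap o p * a * swap o p) * swap o p = a := by
      intro a
      have h4 : (swap o p : Perm (Fin n)) * swap o p = 1 := swap_mul_self _ _
      calc _ = (swap o p * swap o p) * a * (swap o p * swap o p) := by simp only [mul_assoc]
        _ = a := by rw [h4, one_mul, mul_one]
    have hact : ∀ (a b : ↥(alternatingGroup (Fin n))), (b : Perm (Fin n)) = swap o p * a * swap o p → ∀ w,
        V F (ψ b) (V F t0 w) = V F t0 (V F (ψ a) w) := by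
      intro a b hb w
      rw [← ht a b hb, V_mul, V_mul, ← V_mul t0⁻¹, inv_mul_cancel, V_one]
    refine ⟨?_, ?_⟩
    · intro a h6 h7
      have h8 := hact ⟨_, hcs a⟩ a (hss _).symm w
      rw [h8, hw1 ⟨_, hcs a⟩]
      · show swap o p ((a : Perm (Fin n)) (swap o p o)) = o
        rw [swap_apply_left, h7, swap_apply_right]
      · show swap o p ((a : Perm (Fin n)) (swap o p p)) = p
        rw [swap_apply_right, h6, swap_apply_left]
    · rw [SetLike.mem_coe, mem_Z3] at hw2 ⊢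
      have hb2 : ((P n (lb ++ lb) : ↥(alternatingGroup (Fin n))) : Perm (Fin n)) * swap o p =
          swap o p * ((P n lb : ↥(alternatingGroup (Fin n))) : Perm (Fin n)) := by
        have hof : ∀ (k : ℕ) (hk : k < n), Fin.ofNat n k = ⟨k, hk⟩ := fun k hk => Fin.ext (val_ofNat' hk)
        have h1 : swap o p = pm n [(0, 1)] := by
          rw [pm_cons, pm_nil, mul_one, hof 0 (by omega), hof 1 (by omega)]
        rw [coe_P hn8 (by decide), coe_P hn8 (by decide), h1, ← pm_append, ← pm_append]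
        exact pm_eq hn8 (by unfold En; decide) (by unfold En; decide) (by decide)
      have h9 : ((P n lb : ↥(alternatingGroup (Fin n))) : Perm (Fin n)) =
          swap o p * ((P n (lb ++ lb) : ↥(alternatingGroup (Fin n))) : Perm (Fin n)) * swap o p := by
        rw [mul_assoc, hb2, ← mul_assoc, swap_mul_self, one_mul]
      have h10 : ∀ w, V F (ψ (P n lb)) (V F t0 w) = V F t0 (V F (ψ (P n lb)) (V F (ψ (P n lb)) w)) := by
        intro w
        rw [hact _ _ h9, P_append hn8 (by decide) (by decide), map_mul, V_mul]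
      have h11 : V F (ψ (P n lb)) (V F (ψ (P n lb)) (V F (ψ (P n lb)) w)) = w := lb_pow (ρ := ρ) hn w
      rw [h10, h10, h11, ← map_add, ← map_add]
      have h12 : w + V F (ψ (P n lb)) (V F (ψ (P n lb)) w) + V F (ψ (P n lb)) w = 0 := by
        rw [← hw2]; abel
      rw [h12, map_zero])
  obtain ⟨hu1, hu2⟩ := hu
  obtain ⟨hT0, heq⟩ := heq_T2 h2 hn exx (o := o) (p := p) (q := q) rfl rfl rfl hu1 (mem_Z3.1 hu2)
  have hT : ∀ i j k : Fin n, i ≠ j → j ≠ k → i ≠ k → W ψ o p u i j + W ψ o p u j k + W ψ o p u k i = 0 :=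
    fun i j k h1 h3 h4 => tri (by omega) hop hu1 hoq hpq hT0 h1 h3 h4
  have hn22 : n ≤ 22 := n_le h2 hn ex (o := o) (p := p) rfl rfl hu1 hune hT
  exact final h2 (by omega) hM hψ hop (hcard hn22) (hts hn22) hu1 hoq hpq hT0 hune hH heq

end main

end Cfsg.Agent.R2.T1.T2p
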