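import Mathlib
import Cfsg.Agent.R2.T1.T1p.Comb

/-!
# T1 (S5771, p = 2): even permutations of `n` points, symmetric functions on pairs (helper25)

* `exists_out` : points outside a small set;
* `exists_even3`, `exists_even2` : transitivity of `A_n`;
* `sym_of_tri` : functions on ordered pairs with values in an elementary abelian 2-group, with zero triangle sums, are symmetric.
-/

set_option autoImplicit false

namespace Cfsg.Agent.R2.T1.T2p

open Equiv Equiv.Perm
open Cfsg.Agent.R2.T1.T1p (ext_step)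

variable {n : ℕ}

theorem exists_out (S : Finset (Fin n)) (h : S.card < n) : ∃ x : Fin n, x ∉ S := by
  by_contra hcon
  push Not at hcon
  have h1 : S = Finset.univ := Finset.eq_univ_iff_forall.2 hcon
  rw [h1, Finset.card_univ, Fintype.card_fin] at h
  omega

theorem card_le4 (a b c d : Fin n) : ({a, b, c, d} : Finset (Fin n)).card ≤ 4 := Finset.card_le_four

/-- a point different from four points -/
theorem out4 (hn : 5 ≤ n) (a b c d : Fin n) : ∃ x : Fin n, x ≠ a ∧ x ≠ b ∧ x ≠ c ∧ x ≠ d := by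
  obtain ⟨x, hx⟩ := exists_out {a, b, c, d} (lt_of_le_of_lt (card_le4 a b c d) (by omega))
  simp only [Finset.mem_insert, Finset.mem_singleton, not_or] at hx
  exact ⟨x, hx.1, hx.2.1, hx.2.2.1, hx.2.2.2⟩

/-- two points different from three points -/
theorem two_out3 (hn : 5 ≤ n) (a b c : Fin n) : ∃ x y : Fin n, x ≠ a ∧ x ≠ b ∧ x ≠ c ∧ y ≠ a ∧ y ≠ b ∧ y ≠ c ∧ x ≠ y := by
  obtain ⟨x, h1, h2, h3, -⟩ := out4 hn a b c c
  obtain ⟨y, g1, g2, g3, g4⟩ := out4 hn a b c x
  exact ⟨x, y, h1, h2, h3, g1, g2, g3, g4.symm⟩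

/-- two points different from four points -/
theorem two_out4 (hn : 6 ≤ n) (a b c d : Fin n) : ∃ x y : Fin n, x ≠ a ∧ x ≠ b ∧ x ≠ c ∧ x ≠ d ∧ y ≠ a ∧ y ≠ b ∧ y ≠ c ∧
    y ≠ d ∧ x ≠ y := by
  obtain ⟨x, h1, h2, h3, h4⟩ := out4 (by omega) a b c d
  obtain ⟨y, hy⟩ := exists_out {a, b, c, d, x} (lt_of_le_of_lt Finset.card_le_five (by omega))
  simp only [Finset.mem_insert, Finset.mem_singleton, not_or] at hy
  exact ⟨x, y, h1, h2, h3, h4, hy.1, hy.2.1, hy.2.2.1, hy.2.2.2.1, fun h => hy.2.2.2.2 h.symm⟩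

/-- `A_n` is 3-transitive -/
theorem exists_even3 (hn : 5 ≤ n) {x y z i j k : Fin n} (hxy : x ≠ y) (hyz : y ≠ z) (hxz : x ≠ z) (hij : i ≠ j)
    (hjk : j ≠ k) (hik : i ≠ k) : ∃ a : ↥(alternatingGroup (Fin n)), (a : Perm (Fin n)) x = i ∧ (a : Perm (Fin n)) y = j ∧
      (a : Perm (Fin n)) z = k := by
  obtain ⟨σ1, h1, -⟩ := ext_step (1 : Perm (Fin n)) z k
  obtain ⟨σ2, h2, h2'⟩ := ext_step σ1 y j
  obtain ⟨σ3, h3, h3'⟩ := ext_step σ2 x i
  have e7 : σ2 z = k := by rw [h2' z hyz.symm (by rw [h1]; exact hjk.symm), h1]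
  have f7 : σ3 z = k := by rw [h3' z hxz.symm (by rw [e7]; exact hik.symm), e7]
  have f6 : σ3 y = j := by rw [h3' y hxy.symm (by rw [h2]; exact hij.symm), h2]
  rcases Int.units_eq_one_or (sign σ3) with h | h
  · exact ⟨⟨σ3, mem_alternatingGroup.2 h⟩, h3, f6, f7⟩
  · obtain ⟨p, q, p1, p2, p3, q1, q2, q3, hpq⟩ := two_out3 hn x y z
    refine ⟨⟨σ3 * swap p q, ?_⟩, ?_, ?_, ?_⟩
    · rw [mem_alternatingGroup, Perm.sign_mul, h, sign_swap hpq]
      decide
    · rw [Perm.mul_apply, swap_apply_of_ne_of_ne p1.symm q1.symm]; exact h3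
    · rw [Perm.mul_apply, swap_apply_of_ne_of_ne p2.symm q2.symm]; exact f6
    · rw [Perm.mul_apply, swap_apply_of_ne_of_ne p3.symm q3.symm]; exact f7

theorem exists_even2 (hn : 5 ≤ n) {x y i j : Fin n} (hxy : x ≠ y) (hij : i ≠ j) :
    ∃ a : ↥(alternatingGroup (Fin n)), (a : Perm (Fin n)) x = i ∧ (a : Perm (Fin n)) y = j := by
  obtain ⟨z, -, z1, z2, -, -, -, -, -⟩ := two_out3 hn x x y
  obtain ⟨k, -, k1, k2, -, -, -, -, -⟩ := two_out3 hn i i j
  obtain ⟨z', h1, h2, h3, h4⟩ := out4 hn x y x y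
  obtain ⟨k', g1, g2, g3, g4⟩ := out4 hn i j i j
  obtain ⟨a, e1, e2, -⟩ := exists_even3 hn hxy h2.symm h1.symm hij g2.symm g1.symm
  exact ⟨a, e1, e2⟩

section sym
variable {A : Type*} [AddCommGroup A] {W : Fin n → Fin n → A}

/-- zero triangle sums -/
theorem sym_of_tri (hn : 5 ≤ n) (h2 : ∀ a : A, a + a = 0)
    (T : ∀ i j k, i ≠ j → j ≠ k → i ≠ k → W i j + W j k + W k i = 0) {i j : Fin n} (hij : i ≠ j) : W i j = W j i := by
  have hneg : ∀ a : A, -a = a := fun a => neg_eq_of_add_eq_zero_left (h2 a)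
  have key : ∀ j k l : Fin n, j ≠ k → j ≠ l → k ≠ l → W j k + W k j = W j l + W l j := by
    intro j k l hjk hjl hkl
    obtain ⟨i, m, hi1, hi2, hi3, hm1, hm2, hm3, him⟩ := two_out3 hn j k l
    have t1 := T j k i hjk hi2.symm hi1.symm
    have t2 := T j l i hjl hi3.symm hi1.symm
    have t3 := T k i m hi2.symm him hm2.symm
    have t4 := T l i m hi3.symm him hm3.symm
    have t5 := T k j m hjk.symm hm1.symm hm2.symm
    have t6 := T l j m hjl.symm hm1.symm hm3.symm
    have e : (W j k + W k j) - (W j l + W l j) = (W j k + W k i + W i j) - (W j l + W l i + W i j) -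
        ((W k i + W i m + W m k) - (W l i + W i m + W m l)) + ((W k j + W j m + W m k) - (W l j + W j m + W m l)) := by
      abel
    rw [t1, t2, t3, t4, t5, t6] at e
    simp only [sub_zero, add_zero] at e
    exact sub_eq_zero.1 e
  obtain ⟨k, hki, hkj, -, -⟩ := out4 hn i j i j
  have a1 := key i j k hij hki.symm hkj.symm
  have a2 := key j i k hij.symm hkj.symm hki.symm
  have t1 := T i j k hij hkj.symm hki.symm
  have t2 := T i k j hki.symm hkj hij
  have e : (W i j + W j i) = (W i j + W j k + W k i) + (W i k + W k j + W j i) - (W j k + W k j) - (W i k + W k i) := by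
    abel
  rw [t1, t2, ← a1, ← a2] at e
  have e2 : W i j + W j i = 0 := by
    have e3 : W j i + W i j = W i j + W j i := add_comm _ _
    rw [e3] at e
    rw [e, add_zero, zero_sub, sub_eq_add_neg, hneg]
    exact h2 _
  rw [← hneg (W j i)]
  exact eq_neg_of_add_eq_zero_left e2

end sym

end Cfsg.Agent.R2.T1.T2p
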