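import Cfsg.Agent.R2.T1.Mu2.Line
import Cfsg.Agent.R2.T1.T2p.Per
import Cfsg.Agent.R2.T1.Inf.Aut

/-!
# T1 (S5771, p = 2): vectors fixed by `A_(n-2)` and their translates, `n` arbitrary (helper25)

* `US ψ o p` : the fixed space of the stabilizer of the points `o`, `p`;
* `W ψ o p u i j` : the translates of `u ∈ US ψ o p`; `tri`, `W_symm`;
* `exists_t0` : the elements of `H`.
-/

set_option autoImplicit false
set_option maxRecDepth 100000

namespace Cfsg.Agent.R2.T1.T2p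

open Cfsg Cfsg.Lie Module Equiv Equiv.Perm
open Cfsg.Agent.H943.E7V.Block (D1 rho)
open Cfsg.Agent.H952.F4 (ev es MaxAlt)
open Cfsg.Agent.R2.T1

universe u

variable {F : Type u} [Field F] {n : ℕ}

section US
variable (ψ : ↥(alternatingGroup (Fin n)) →* Gh F) (o p : Fin n)

/-- the vectors fixed by the stabilizer of `o` and `p` -/
def US : Submodule F (D1 → F) where
  carrier := {v | ∀ a : ↥(alternatingGroup (Fin n)), (a : Perm (Fin n)) o = o → (a : Perm (Fin n)) p = p → V F (ψ a) v = v}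
  add_mem' := by
    intro v w hv hw a h6 h7
    rw [map_add, hv a h6 h7, hw a h6 h7]
  zero_mem' := by
    intro a _ _
    rw [map_zero]
  smul_mem' := by
    intro c v hv a h6 h7
    rw [map_smul, hv a h6 h7]

end US

/-! ### translates -/

section W
variable {ψ : ↥(alternatingGroup (Fin n)) →* Gh F} {o p : Fin n}

theorem mem_US {v : D1 → F} : v ∈ US ψ o p ↔ ∀ a : ↥(alternatingGroup (Fin n)), (a : Perm (Fin n)) o = o →
    (a : Perm (Fin n)) p = p → V F (ψ a) v = v := Iff.rfl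

open Classical in
/-- the translates -/
noncomputable def W (ψ : ↥(alternatingGroup (Fin n)) →* Gh F) (o p : Fin n) (u : D1 → F) (i j : Fin n) : D1 → F :=
  if h : ∃ a : ↥(alternatingGroup (Fin n)), (a : Perm (Fin n)) o = i ∧ (a : Perm (Fin n)) p = j then
    V F (ψ h.choose) u else 0

theorem W_eq {u : D1 → F} (hu : u ∈ US ψ o p) {a : ↥(alternatingGroup (Fin n))} {i j : Fin n}
    (h6 : (a : Perm (Fin n)) o = i) (h7 : (a : Perm (Fin n)) p = j) : V F (ψ a) u = W ψ o p u i j := by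
  have hex : ∃ a : ↥(alternatingGroup (Fin n)), (a : Perm (Fin n)) o = i ∧ (a : Perm (Fin n)) p = j := ⟨a, h6, h7⟩
  obtain ⟨p6, p7⟩ := hex.choose_spec
  unfold W
  rw [dif_pos hex]
  set b := hex.choose with hp
  have h1 : V F (ψ (b⁻¹ * a)) u = u := by
    apply hu
    · show ((b : Perm (Fin n))⁻¹) ((a : Perm (Fin n)) o) = o
      rw [Perm.inv_eq_iff_eq, p6]; exact h6
    · show ((b : Perm (Fin n))⁻¹) ((a : Perm (Fin n)) p) = p
      rw [Perm.inv_eq_iff_eq, p7]; exact h7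
  conv_rhs => rw [← h1]
  rw [← V_mul, ← map_mul, mul_inv_cancel_left]

theorem W_act (hn : 5 ≤ n) (hop : o ≠ p) {u : D1 → F} (hu : u ∈ US ψ o p) (b : ↥(alternatingGroup (Fin n))) {i j : Fin n}
    (hij : i ≠ j) : V F (ψ b) (W ψ o p u i j) = W ψ o p u ((b : Perm (Fin n)) i) ((b : Perm (Fin n)) j) := by
  obtain ⟨a, p6, p7⟩ := exists_even2 hn hop hij
  rw [← W_eq hu p6 p7, ← V_mul, ← map_mul]
  apply W_eq hu
  · show (b : Perm (Fin n)) ((a : Perm (Fin n)) o) = _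
    rw [p6]
  · show (b : Perm (Fin n)) ((a : Perm (Fin n)) p) = _
    rw [p7]

theorem W_self {u : D1 → F} (hu : u ∈ US ψ o p) : W ψ o p u o p = u := by
  have h := W_eq (a := 1) hu (i := o) (j := p) rfl rfl
  rw [← h, map_one, V_one]

/-- **triangle sums** -/
theorem tri (hn : 5 ≤ n) (hop : o ≠ p) {u : D1 → F} (hu : u ∈ US ψ o p) {q : Fin n} (hoq : o ≠ q) (hpq : p ≠ q)
    (h0 : W ψ o p u o p + W ψ o p u p q + W ψ o p u q o = 0)
    {i j k : Fin n} (hij : i ≠ j) (hjk : j ≠ k) (hik : i ≠ k) : W ψ o p u i j + W ψ o p u j k + W ψ o p u k i = 0 := by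
  obtain ⟨a, a5, a6, a7⟩ := exists_even3 hn hop hpq hoq hij hjk hik
  have h1 := congrArg (V F (ψ a)) h0
  rw [map_add, map_add, map_zero, W_act hn hop hu a hop, W_act hn hop hu a hpq, W_act hn hop hu a hoq.symm, a5, a6, a7] at h1
  exact h1

theorem add_self_zero (h2 : (2 : F) = 0) (v : D1 → F) : v + v = 0 := by
  funext a
  rw [Pi.add_apply, Pi.zero_apply]
  linear_combination (v a) * h2

theorem W_symm (h2 : (2 : F) = 0) (hn : 5 ≤ n) {u : D1 → F}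
    (hT : ∀ i j k : Fin n, i ≠ j → j ≠ k → i ≠ k → W ψ o p u i j + W ψ o p u j k + W ψ o p u k i = 0)
    {i j : Fin n} (hij : i ≠ j) : W ψ o p u i j = W ψ o p u j i :=
  sym_of_tri (W := W ψ o p u) hn (add_self_zero h2) hT hij

end W

/-! ### the outer elements -/

section outer
variable {H : Subgroup ↥(chevE7.group F)} {φ : ↥(alternatingGroup (Fin n)) →* ↥(chevE7.group F)}
  {ψ : ↥(alternatingGroup (Fin n)) →* Gh F}

theorem ad_inj2 (h2 : (2 : F) = 0) {g h : Gh F} (hgh : ad F g = ad F h) : g = h := by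
  rcases ad_eq_iff.1 hgh with h1 | h1
  · exact h1
  · apply V_injective
    rw [h1]
    refine LinearMap.ext fun v => ?_
    rw [LinearMap.neg_apply]
    exact neg_eq_of_add_eq_zero_left (add_self_zero h2 _)

theorem cent_one (h2 : (2 : F) = 0) (hn : 5 ≤ n) (hM : MaxAlt H n φ) (hψ : Lift φ ψ) {g : Gh F}
    (hg : ∀ a, g * ψ a * g⁻¹ = ψ a) : g = 1 := by
  apply ad_inj2 h2
  rw [map_one]
  apply centralizer_eq hM (by omega)
  intro a
  rw [← hψ a, ← map_mul, ← map_mul]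
  congr 1
  have h := hg a
  rw [mul_inv_eq_iff_eq_mul] at h
  exact h.symm

theorem perm_lift (h2 : (2 : F) = 0) (hn : 7 ≤ n) (hM : MaxAlt H n φ) (hψ : Lift φ ψ) {g : Gh F} (hg : ad F g ∈ H) :
    ∃ σ : Perm (Fin n), ∀ a b : ↥(alternatingGroup (Fin n)), (b : Perm (Fin n)) = σ * a * σ⁻¹ → g * ψ a * g⁻¹ = ψ b := by
  obtain ⟨σ, hσ⟩ := exists_perm hn hM hg
  refine ⟨σ, fun a b hab => ad_inj2 h2 ?_⟩
  rw [map_mul, map_mul, map_inv, hψ, hψ]
  exact hσ a b hab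

/-- the elements of `H` -/
theorem exists_t0 (h2 : (2 : F) = 0) (hn : 7 ≤ n) (hM : MaxAlt H n φ) (hψ : Lift φ ψ) {o p : Fin n} (hop : o ≠ p) :
    (∀ g : Gh F, ad F g ∈ H → ∃ π, g = ψ π) ∨
    ∃ t0 : Gh F, t0 * t0 = 1 ∧ (∀ a b : ↥(alternatingGroup (Fin n)), (b : Perm (Fin n)) = swap o p * a * swap o p →
      t0 * ψ a * t0⁻¹ = ψ b) ∧ ∀ g : Gh F, ad F g ∈ H → ∃ π, g = ψ π ∨ g = ψ π * t0 := by
  have hodd : ∀ σ : Perm (Fin n), sign σ = -1 → σ * swap o p ∈ alternatingGroup (Fin n) := by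
    intro σ hσ
    rw [mem_alternatingGroup, Perm.sign_mul, hσ, sign_swap hop]
    decide
  have hs : (swap o p : Perm (Fin n))⁻¹ = swap o p := swap_inv _ _
  have hconj : ∀ (σ : Perm (Fin n)) (a : ↥(alternatingGroup (Fin n))), σ * (a : Perm (Fin n)) * σ⁻¹ ∈ alternatingGroup (Fin n) := by
    intro σ a
    rw [mem_alternatingGroup, Perm.sign_mul, Perm.sign_mul, mem_alternatingGroup.1 a.2, mul_one, Perm.sign_inv,
      Int.units_mul_self]
  have heven : ∀ g : Gh F, ∀ σ : Perm (Fin n), (∀ a b : ↥(alternatingGroup (Fin n)), (b : Perm (Fin n)) = σ * (a : Perm (Fin n)) * σ⁻¹ →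
      g * ψ a * g⁻¹ = ψ b) → ∀ hσ : σ ∈ alternatingGroup (Fin n), g = ψ ⟨σ, hσ⟩ := by
    intro g σ h hσ
    have h1 : (ψ ⟨σ, hσ⟩)⁻¹ * g = 1 := by
      apply cent_one h2 (by omega) hM hψ
      intro a
      have h3 := h a ⟨σ * (a : Perm (Fin n)) * σ⁻¹, hconj σ a⟩ rfl
      have e : (⟨σ * (a : Perm (Fin n)) * σ⁻¹, hconj σ a⟩ : ↥(alternatingGroup (Fin n))) = ⟨σ, hσ⟩ * a * ⟨σ, hσ⟩⁻¹ := rfl
      rw [e, map_mul, map_mul, map_inv] at h3
      calc (ψ ⟨σ, hσ⟩)⁻¹ * g * ψ a * ((ψ ⟨σ, hσ⟩)⁻¹ * g)⁻¹ = (ψ ⟨σ, hσ⟩)⁻¹ * (g * ψ a * g⁻¹) * ψ ⟨σ, hσ⟩ := by group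
        _ = ψ a := by rw [h3]; group
    exact (inv_mul_eq_one.1 h1).symm
  by_cases hall : ∀ g : Gh F, ad F g ∈ H → ∃ π, g = ψ π
  · exact Or.inl hall
  right
  push Not at hall
  obtain ⟨g0, hg0, hne⟩ := hall
  obtain ⟨σ0, hσ0⟩ := perm_lift h2 hn hM hψ hg0
  have hs0 : sign σ0 = -1 := by
    rcases Int.units_eq_one_or (sign σ0) with h | h
    · exact absurd (heven g0 σ0 hσ0 (mem_alternatingGroup.2 h)) (hne _)
    · exact h
  have hred : ∀ g : Gh F, ∀ σ : Perm (Fin n), (∀ a b : ↥(alternatingGroup (Fin n)), (b : Perm (Fin n)) = σ * (a : Perm (Fin n)) * σ⁻¹ →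
      g * ψ a * g⁻¹ = ψ b) → ∀ hσ : σ * swap o p ∈ alternatingGroup (Fin n), ∀ a b : ↥(alternatingGroup (Fin n)),
        (b : Perm (Fin n)) = swap o p * (a : Perm (Fin n)) * swap o p →
        ((ψ ⟨σ * swap o p, hσ⟩)⁻¹ * g) * ψ a * ((ψ ⟨σ * swap o p, hσ⟩)⁻¹ * g)⁻¹ = ψ b := by
    intro g σ h hσ a b hb
    have h3 := h a ⟨σ * (a : Perm (Fin n)) * σ⁻¹, hconj σ a⟩ rfl
    have e : (⟨σ * (a : Perm (Fin n)) * σ⁻¹, hconj σ a⟩ : ↥(alternatingGroup (Fin n))) =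
        ⟨σ * swap o p, hσ⟩ * b * (⟨σ * swap o p, hσ⟩ : ↥(alternatingGroup (Fin n)))⁻¹ := by
      apply Subtype.ext
      show σ * (a : Perm (Fin n)) * σ⁻¹ = σ * swap o p * (b : Perm (Fin n)) * (σ * swap o p)⁻¹
      rw [hb, mul_inv_rev, hs]
      have h4 : (swap o p : Perm (Fin n)) * swap o p = 1 := swap_mul_self _ _
      calc σ * (a : Perm (Fin n)) * σ⁻¹ = σ * (swap o p * swap o p) * (a : Perm (Fin n)) * (swap o p * swap o p) * σ⁻¹ := by
            rw [h4, mul_one, mul_one]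
        _ = _ := by simp only [mul_assoc]
    rw [e, map_mul, map_mul, map_inv] at h3
    calc _ = (ψ ⟨σ * swap o p, hσ⟩)⁻¹ * (g * ψ a * g⁻¹) * ψ ⟨σ * swap o p, hσ⟩ := by group
      _ = ψ b := by rw [h3]; group
  set t0 : Gh F := (ψ ⟨σ0 * swap o p, hodd σ0 hs0⟩)⁻¹ * g0 with ht0
  have ht : ∀ a b : ↥(alternatingGroup (Fin n)), (b : Perm (Fin n)) = swap o p * (a : Perm (Fin n)) * swap o p →
      t0 * ψ a * t0⁻¹ = ψ b := hred g0 σ0 hσ0 (hodd σ0 hs0)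
  have hss : ∀ a : Perm (Fin n), swap o p * (swap o p * a * swap o p) * swap o p = a := by
    intro a
    have h4 : (swap o p : Perm (Fin n)) * swap o p = 1 := swap_mul_self _ _
    calc _ = (swap o p * swap o p) * a * (swap o p * swap o p) := by simp only [mul_assoc]
      _ = a := by rw [h4, one_mul, mul_one]
  have hcs : ∀ a : ↥(alternatingGroup (Fin n)), swap o p * (a : Perm (Fin n)) * swap o p ∈ alternatingGroup (Fin n) := by
    intro a
    have := hconj (swap o p) a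
    rwa [hs] at this
  have ht2 : t0 * t0 = 1 := by
    apply cent_one h2 (by omega) hM hψ
    intro a
    have h3 := ht a ⟨_, hcs a⟩ rfl
    have h4 := ht ⟨_, hcs a⟩ a (hss _).symm
    calc t0 * t0 * ψ a * (t0 * t0)⁻¹ = t0 * (t0 * ψ a * t0⁻¹) * t0⁻¹ := by group
      _ = ψ a := by rw [h3, h4]
  refine ⟨t0, ht2, ht, fun g hg => ?_⟩
  obtain ⟨σ, hσ⟩ := perm_lift h2 hn hM hψ hg
  rcases Int.units_eq_one_or (sign σ) with h | h
  · exact ⟨_, Or.inl (heven g σ hσ (mem_alternatingGroup.2 h))⟩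
  · refine ⟨⟨σ * swap o p, hodd σ h⟩, Or.inr ?_⟩
    have h3 := hred g σ hσ (hodd σ h)
    set t1 : Gh F := (ψ ⟨σ * swap o p, hodd σ h⟩)⁻¹ * g with ht1
    have h4 : t1 * t0 = 1 := by
      apply cent_one h2 (by omega) hM hψ
      intro a
      have h5 := ht a ⟨_, hcs a⟩ rfl
      have h6 := h3 ⟨_, hcs a⟩ a (hss _).symm
      calc t1 * t0 * ψ a * (t1 * t0)⁻¹ = t1 * (t0 * ψ a * t0⁻¹) * t1⁻¹ := by group
        _ = ψ a := by rw [h5, h6]
    have h5 : t1 = t0 := by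
      calc t1 = t1 * (t0 * t0) := by rw [ht2, mul_one]
        _ = (t1 * t0) * t0 := by group
        _ = t0 := by rw [h4, one_mul]
    rw [← h5, ht1]; group

/-- a vector with `H u = ψ(A_n) u` -/
theorem exists_vec (h2 : (2 : F) = 0) (hn : 7 ≤ n) (hM : MaxAlt H n φ) (hψ : Lift φ ψ) {o p : Fin n} (hop : o ≠ p)
    (U' : Submodule F (D1 → F)) (h0 : U' ≠ ⊥) (hst : ∀ t0 : Gh F, t0 * t0 = 1 →
      (∀ a b : ↥(alternatingGroup (Fin n)), (b : Perm (Fin n)) = swap o p * a * swap o p → t0 * ψ a * t0⁻¹ = ψ b) →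
      ∀ u ∈ U', V F t0 u ∈ U') : ∃ u ∈ U', u ≠ 0 ∧ ∀ g : Gh F, ad F g ∈ H → ∃ π, V F g u = V F (ψ π) u := by
  obtain ⟨v, hv, hv0⟩ := Submodule.exists_mem_ne_zero_of_ne_bot h0
  rcases exists_t0 h2 hn hM hψ hop with h | ⟨t0, ht2, ht, hgen⟩
  · refine ⟨v, hv, hv0, fun g hg => ?_⟩
    obtain ⟨π, rfl⟩ := h g hg
    exact ⟨π, rfl⟩
  · have key : ∀ u ∈ U', u ≠ 0 → V F t0 u = u → ∃ u ∈ U', u ≠ 0 ∧ ∀ g : Gh F, ad F g ∈ H → ∃ π, V F g u = V F (ψ π) u := by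
      intro u hu hu0 hut
      refine ⟨u, hu, hu0, fun g hg => ?_⟩
      obtain ⟨π, h9 | h9⟩ := hgen g hg
      · exact ⟨π, by rw [h9]⟩
      · exact ⟨π, by rw [h9, V_mul, hut]⟩
    by_cases hvt : V F t0 v = v
    · exact key v hv hv0 hvt
    · refine key (v + V F t0 v) (U'.add_mem hv (hst t0 ht2 ht v hv)) ?_ ?_
      · intro h
        apply hvt
        have h3 := add_self_zero h2 v
        have h4 : V F t0 v = -v := (neg_eq_of_add_eq_zero_right h).symm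
        rw [h4]
        exact neg_eq_of_add_eq_zero_left h3
      · rw [map_add, ← V_mul, ht2, V_one, add_comm]

end outer

end Cfsg.Agent.R2.T1.T2p
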