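import Cfsg.Agent.R2.T1.T2p.Tb
import Cfsg.Agent.R2.T1.Odd.Nine5
import Cfsg.Agent.R2.T1.T3.Core

/-!
# T1 (S5771, p = 2): elements of order 9 and 7 (helper25)

* `K_id` : `e₉ e₇ v = v` for `v` fixed by the element `zz` of order 9;
* `K_le` : `ev zz ≤ ev l7`; `K_inj` : if equality holds, then `e₉ w = 0` implies `w = 0` for `w` fixed by `l7`;
* `nine_rat2`, `ev_zz` : `ev zz = 8`.
-/

set_option autoImplicit false
set_option maxRecDepth 100000

namespace Cfsg.Agent.R2.T1.Msk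

open Cfsg Cfsg.Lie Module Equiv Equiv.Perm
open Cfsg.Agent.H943.E7V.Block (D1 rho)
open Cfsg.Agent.H952.F4 (ev es)
open Cfsg.Agent.R2.T1 Cfsg.Agent.R2.T1.Art Cfsg.Agent.R2.T1.Odd

universe u

/-- the element of order 9 -/
def zz : List (ℕ × ℕ) := DK.zt

theorem e7_eq : e7 = (List.range 7).map fun k => List.replicate k 0 := by decide

theorem e9_eq : e9 = (List.range 9).map fun k => List.replicate k 1 := by decide

section
variable {n m : ℕ} [NeZero n] {F : Type*} [Field F] {W : Type*} [AddCommGroup W] [Module F W]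
  (ρ : Representation F ↥(alternatingGroup (Fin n)) W)

theorem wd_replicate (gens : List (List (ℕ × ℕ))) (i k : ℕ) :
    wd gens (List.replicate k i) = pwl (gens.getD i []) k := by
  unfold wd pwl
  rw [List.map_replicate]

/-- the sum over a cyclic subgroup -/
theorem Op_cyc (hm : m ≤ n) {gens : List (List (ℕ × ℕ))} {i : ℕ} (h : vl m (gens.getD i []) = true) (N : ℕ) :
    Op ρ gens ((List.range N).map fun k => List.replicate k i) = ∑ k ∈ Finset.range N, ρ (P n (gens.getD i [])) ^ k := by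
  unfold Op
  rw [List.map_map, ← List.sum_toFinset _ List.nodup_range, List.toFinset_range]
  refine Finset.sum_congr rfl fun k _ => ?_
  show ρ (P n (wd gens (List.replicate k i))) = _
  rw [wd_replicate, P_pwl hm h, map_pow]

theorem geom_fix {T : Module.End F W} {N : ℕ} (hT : T ^ N = 1) (w : W) :
    T ((∑ k ∈ Finset.range N, T ^ k) w) = (∑ k ∈ Finset.range N, T ^ k) w := by
  have h := mul_geom_sum T N
  rw [hT, sub_self, sub_mul, one_mul, sub_eq_zero] at h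
  rw [← Module.End.mul_apply, h]

theorem Op_fix (hm : m ≤ n) {gens : List (List (ℕ × ℕ))} {i : ℕ} (h : vl m (gens.getD i []) = true) {N : ℕ}
    (hN : cd m (pwl (gens.getD i []) N) = cd m []) (w : W) :
    ρ (P n (gens.getD i [])) (Op ρ gens ((List.range N).map fun k => List.replicate k i) w) =
      Op ρ gens ((List.range N).map fun k => List.replicate k i) w := by
  rw [Op_cyc ρ hm h]
  exact geom_fix (by rw [← map_pow, P_pow_one hm h hN, map_one]) w

variable {ρ}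

theorem K_id (hn : 9 ≤ n) (h2 : ∀ w : W, w + w = 0) {v : W} (hv : ρ (P n zz) v = v) :
    Op ρ DK.gens e9 (Op ρ DK.gens e7 v) = v := by
  have h := sumM_one (ρ := ρ) (D := DK) (v := v) rfl
  conv_lhs => rw [← h]
  rw [eval hn h2 chkK hv (by decide), eval hn h2 chkK hv (by decide), cK, h]

theorem e7_fix (hn : 9 ≤ n) (w : W) : ρ (P n Odd.l7) (Op ρ DK.gens e7 w) = Op ρ DK.gens e7 w := by
  rw [e7_eq]
  exact Op_fix ρ hn (gens := DK.gens) (i := 0) (N := 7) (by decide) (by decide) w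

theorem e9_fix (hn : 9 ≤ n) (w : W) : ρ (P n zz) (Op ρ DK.gens e9 w) = Op ρ DK.gens e9 w := by
  rw [e9_eq]
  exact Op_fix ρ hn (gens := DK.gens) (i := 1) (N := 9) (by decide) (by decide) w

theorem mem_es' {T : Module.End F W} {w : W} : w ∈ es T 1 ↔ T w = w := by
  rw [es, Module.End.mem_eigenspace_iff, one_smul]

variable [FiniteDimensional F W]

theorem K_map (hn : 9 ≤ n) (h2 : ∀ w : W, w + w = 0) :
    finrank F ↥((es (ρ (P n zz)) 1).map (Op ρ DK.gens e7)) = ev (ρ (P n zz)) 1 ∧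
      (es (ρ (P n zz)) 1).map (Op ρ DK.gens e7) ≤ es (ρ (P n Odd.l7)) 1 := by
  constructor
  · refine T3.finrank_map _ _ fun w hw h0 => ?_
    rw [← K_id hn h2 (mem_es'.1 hw), h0, map_zero]
  · rintro _ ⟨w, hw, rfl⟩
    exact mem_es'.2 (e7_fix hn w)

theorem K_le (hn : 9 ≤ n) (h2 : ∀ w : W, w + w = 0) : ev (ρ (P n zz)) 1 ≤ ev (ρ (P n Odd.l7)) 1 := by
  obtain ⟨h1, h3⟩ := K_map (ρ := ρ) hn h2
  rw [← h1]
  exact Submodule.finrank_mono h3

theorem K_inj (hn : 9 ≤ n) (h2 : ∀ w : W, w + w = 0) (heq : ev (ρ (P n Odd.l7)) 1 ≤ ev (ρ (P n zz)) 1) {w : W}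
    (hw : ρ (P n Odd.l7) w = w) (h0 : Op ρ DK.gens e9 w = 0) : w = 0 := by
  obtain ⟨h1, h3⟩ := K_map (ρ := ρ) hn h2
  have h4 := Submodule.eq_of_le_of_finrank_le h3 (by rw [h1]; exact heq)
  have h5 : w ∈ es (ρ (P n Odd.l7)) 1 := mem_es'.2 hw
  rw [← h4] at h5
  obtain ⟨v, hv, rfl⟩ := h5
  rw [K_id hn h2 (mem_es'.1 hv)] at h0
  rw [h0, map_zero]

end

section nine
variable {F : Type u} [Field F]

/-- **rational elements of order 9** -/
theorem nine_rat2 [Finite F] (h3 : (3 : F) ≠ 0) {x g : Gh F} (hx : x ^ 9 = 1) (hg : g * x * g⁻¹ = x ^ 2)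
    (h8 : ev (V F x) 1 ≤ 8) : ev (V F x) 1 % 3 = 0 ∨ ev (V F x) 1 = 8 ∨ 79 ≤ ev (L F x) 1 := by
  have h9 : ((9 : ℕ) : F) ≠ 0 := by
    have : ((9 : ℕ) : F) = 3 * 3 := by norm_num
    rw [this]
    exact mul_ne_zero h3 h3
  obtain ⟨p, hpp, hp, hcop⟩ := exists_char h9
  obtain ⟨ζ, hζ, P, hP, h1⟩ := pat chk9 (by norm_num) p hcop hx
  have hm : ∀ j, ζ ^ j = ζ ^ (j % 9) := fun j => pow_mod_eq hζ j
  have eV := fun k => ev_rat (V (AlgebraicClosure F)) (N := 9) (a := 2) (b := 5) (emb_pow_one (algebraMap F _) hx)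
    hζ.pow_eq_one (by norm_num) (by norm_num) (emb_rat _ hg) k
  have eL := fun k => ev_rat (L (AlgebraicClosure F)) (N := 9) (a := 2) (b := 5) (emb_pow_one (algebraMap F _) hx)
    hζ.pow_eq_one (by norm_num) (by norm_num) (emb_rat _ hg) k
  have e1 := eV 1
  have e2 := eV 5
  have e3 := eV 3
  have e4 := eL 1
  rw [one_mul, (h1 1 (by norm_num)).1, (h1 5 (by norm_num)).1] at e1
  rw [hm (5 * 5), (h1 5 (by norm_num)).1, (h1 7 (by norm_num)).1] at e2
  rw [hm (3 * 5), (h1 3 (by norm_num)).1, (h1 6 (by norm_num)).1] at e3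
  rw [one_mul, (h1 1 (by norm_num)).2, (h1 5 (by norm_num)).2] at e4
  have h0 := (h1 0 (by norm_num)).1
  have h0' := (h1 0 (by norm_num)).2
  rw [pow_zero, ev_V_one] at h0
  rw [pow_zero, ev_L_one] at h0'
  rw [h0] at h8
  rw [h0, h0']
  have key : ∀ P ∈ T9, P.1.getD 1 0 = P.1.getD 5 0 → P.1.getD 5 0 = P.1.getD 7 0 → P.1.getD 3 0 = P.1.getD 6 0 →
      P.2.getD 1 0 = P.2.getD 5 0 → P.1.getD 0 0 ≤ 8 → P.1.getD 0 0 % 3 = 0 ∨ P.1.getD 0 0 = 8 ∨ 79 ≤ P.2.getD 0 0 := by decide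
  exact key P hP e1 e2 e3 e4 h8

theorem ev_pow_le {W : Type*} [AddCommGroup W] [Module F W] [FiniteDimensional F W] (T : Module.End F W) (k : ℕ) :
    ev T 1 ≤ ev (T ^ k) 1 := by
  refine Submodule.finrank_mono fun w hw => ?_
  rw [Module.End.mem_eigenspace_iff, one_smul] at hw ⊢
  induction k with
  | zero => rw [pow_zero]; rfl
  | succ k ih => rw [pow_succ, Module.End.mul_apply, hw, ih]

variable [Finite F] {n : ℕ} [NeZero n] {ψ : ↥(alternatingGroup (Fin n)) →* Gh F}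

/-- the elements of type `3³` and of order 9 -/
theorem ev_nine (h3' : (3 : F) ≠ 0) (hψ : ∀ a, ad F (ψ a) = 1 → a = 1) (hn : 9 ≤ n)
    (h3 : ev (V F (ψ (P n l3))) 1 = 32) (h33 : ev (V F (ψ (P n l33))) 1 = 20) :
    ev (V F (ψ (P n l333))) 1 = 20 ∧ 3 ∣ ev (V F (ψ (P n l9))) 1 + ev (V F (ψ (P n l9b))) 1 + 2 := by
  have hn8 : 8 ≤ n := by omega
  set ρ : Representation F ↥(alternatingGroup (Fin n)) (D1 → F) := MonoidHom.comp (V F) ψ with hρ
  have e0 : om ρ 1 = 56 := by rw [om_one, finrank_V]; norm_num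
  have e3 : om ρ (P n l3) = 20 := by
    rw [om_prime ρ Nat.prime_three (orderOf_P hn8 (by decide +kernel)), finrank_V, show ev (ρ (P n l3)) 1 = 32 from h3]
    norm_num
  have e33 : om ρ (P n l33) = 2 := by
    rw [om_prime ρ Nat.prime_three (orderOf_P hn8 (by decide +kernel)), finrank_V, show ev (ρ (P n l33)) 1 = 20 from h33]
    norm_num
  have e333 : om ρ (P n l333) = (3 * (ev (ρ (P n l333)) 1 : ℚ) - 56) / 2 := by
    rw [om_prime ρ Nat.prime_three (orderOf_P hn (by decide +kernel)), finrank_V]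
    norm_num
  have c9 : ev (ρ (P n l9 ^ 3)) 1 = ev (ρ (P n l333)) 1 := by
    rw [← P_pwl hn (m := 9) (by decide), ev_cj hn ρ (x := pwl l9 3) (c := [(0, 3), (3, 2), (1, 6), (4, 5), (5, 8), (8, 7)])
      (r := l333) (by decide) (by decide) (by decide) (by decide)]
  have c9b : ev (ρ (P n l9b ^ 3)) 1 = ev (ρ (P n l333)) 1 := by
    rw [← P_pwl hn (m := 9) (by decide), ev_cj hn ρ (x := pwl l9b 3) (c := [(1, 4), (4, 2), (2, 7), (7, 6), (6, 3), (3, 8)])
      (r := l333) (by decide) (by decide) (by decide) (by decide)]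
  have e9 : om ρ (P n l9) = (9 * (ev (ρ (P n l9)) 1 : ℚ) - 3 * (ev (ρ (P n l333)) 1 : ℚ)) / 6 := by
    rw [om_nine ρ (orderOf_P hn (by decide +kernel)), c9]
  have e9b : om ρ (P n l9b) = (9 * (ev (ρ (P n l9b)) 1 : ℚ) - 3 * (ev (ρ (P n l333)) 1 : ℚ)) / 6 := by
    rw [om_nine ρ (orderOf_P hn (by decide +kernel)), c9b]
  have l1 : ev (ρ (P n l9)) 1 ≤ ev (ρ (P n l333)) 1 := by
    rw [← c9, map_pow]; exact ev_pow_le _ 3
  have l2 : ev (ρ (P n l9b)) 1 ≤ ev (ρ (P n l333)) 1 := by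
    rw [← c9b, map_pow]; exact ev_pow_le _ 3
  have h27 : ((27 : ℕ) : F) ≠ 0 := by
    have : ((27 : ℕ) : F) = 3 * 3 * 3 := by norm_num
    rw [this]; exact mul_ne_zero (mul_ne_zero h3' h3') h3'
  have h81 : ((81 : ℕ) : F) ≠ 0 := by
    have : ((81 : ℕ) : F) = 3 * 3 * (3 * 3) := by norm_num
    rw [this]; exact mul_ne_zero (mul_ne_zero h3' h3') (mul_ne_zero h3' h3')
  have dB := dimC hn chkG_B27 chkC_B27 len_B27 (K := 8) rfl h27 cnt_B27 ρ
  have dW := dimC hn chkG_W81 chkC_W81 len_W81 (K := 8) rfl h81 cnt_W81 ρ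
  simp only [r9t_eq, Finset.sum_range_succ, Finset.sum_range_zero, List.getD_cons_zero, List.getD_cons_succ, P_nil,
    e0, e3, e33, e333, e9, e9b] at dB dW
  have hv := three_val h3' (x := ψ (P n l333)) (by rw [← map_pow, P_pow_one hn (m := 9) (by decide) (by decide), map_one])
    (psi_ne' hψ hn (by decide) (by decide))
  have hv' : ev (ρ (P n l333)) 1 = 2 ∨ ev (ρ (P n l333)) 1 = 14 ∨ ev (ρ (P n l333)) 1 = 20 ∨ ev (ρ (P n l333)) 1 = 32 := hv
  show ev (ρ (P n l333)) 1 = 20 ∧ 3 ∣ ev (ρ (P n l9)) 1 + ev (ρ (P n l9b)) 1 + 2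
  generalize ev (ρ (P n l333)) 1 = d at *
  generalize ev (ρ (P n l9)) 1 = x at *
  generalize ev (ρ (P n l9b)) 1 = y at *
  generalize finrank F ↥(inv ρ (Tg n gB27)) = a at *
  generalize finrank F ↥(inv ρ (Tg n gW81)) = b at *
  push_cast at dB dW
  have k1 : 27 * (a : ℤ) = 12 * d - 24 := by
    have : 27 * (a : ℚ) = 12 * d - 24 := by linarith
    exact_mod_cast this
  have k2 : 81 * (b : ℤ) = 200 + 13 * (3 * d - 56) + 9 * (3 * x + 3 * y - 2 * d) := by
    have : 81 * (b : ℚ) = 200 + 13 * (3 * d - 56) + 9 * (3 * x + 3 * y - 2 * d) := by linarith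
    exact_mod_cast this
  rcases hv' with rfl | rfl | rfl | rfl
  · exfalso; omega
  · exfalso; omega
  · refine ⟨rfl, ?_⟩
    omega
  · exfalso; omega

end nine

end Cfsg.Agent.R2.T1.Msk
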