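import Cfsg.Agent.R2.T1.T2p.K9

/-!
# T1 (S5771, p = 2): the pattern (32, 20, 16, ≤ 8, *) for `n ≥ 9` (helper25)

* `ev_zz` : `ev zz = 8`;
* `t1_false` : `ev l7 < 8` is impossible.
-/

set_option autoImplicit false
set_option maxRecDepth 100000

namespace Cfsg.Agent.R2.T1.Msk

open Cfsg Cfsg.Lie Module Equiv Equiv.Perm
open Cfsg.Agent.H943.E7V.Block (D1 rho)
open Cfsg.Agent.H952.F4 (ev es)
open Cfsg.Agent.R2.T1 Cfsg.Agent.R2.T1.Art Cfsg.Agent.R2.T1.Odd

universe u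

variable {F : Type u} [Field F] [Finite F] {n : ℕ} [NeZero n] {ψ : ↥(alternatingGroup (Fin n)) →* Gh F}

omit [Finite F] in
theorem three_ne (h2 : (2 : F) = 0) : (3 : F) ≠ 0 := fun h => one_ne_zero (α := F) (by linear_combination h - h2)

/-- rationality -/
theorem rat_of {m : ℕ} (hm : m ≤ n) {x c : List (ℕ × ℕ)} (hx : vl m x = true) (hc : vl m c = true)
    (h : cd m (pwl x 2 ++ c) = cd m (c ++ x)) : ψ (P n c) * ψ (P n x) * (ψ (P n c))⁻¹ = ψ (P n x) ^ 2 := by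
  rw [← map_mul, ← map_inv, ← map_mul, ← map_pow]
  congr 1
  rw [← P_append hm hc hx, ← (P_eq_iff hm (vl_append (vl_pwl hx 2) hc) (vl_append hc hx)).2 h,
    P_append hm (vl_pwl hx 2) hc, mul_inv_cancel_right, P_pwl hm hx]

theorem ev_zz (h2 : (2 : F) = 0) (hψ : ∀ a, ad F (ψ a) = 1 → a = 1) (hn : 9 ≤ n)
    (h3 : ev (V F (ψ (P n l3))) 1 = 32) (h33 : ev (V F (ψ (P n l33))) 1 = 20)
    (h7 : ev (V F (ψ (P n Odd.l7))) 1 ≤ 8) : ev (V F (ψ (P n zz))) 1 = 8 := by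
  have h3' := three_ne h2
  have h2' : ∀ w : D1 → F, w + w = 0 := fun w => by rw [← two_smul F w, h2, zero_smul]
  obtain ⟨k1, k2⟩ := ev_nine h3' hψ hn h3 h33
  let ρ : Representation F ↥(alternatingGroup (Fin n)) (D1 → F) := MonoidHom.comp (V F) ψ
  let ρ' : Representation F ↥(alternatingGroup (Fin n)) (D1 → F) := MonoidHom.comp ρ (cjt n)
  have a1 : ev (ρ (P n zz)) 1 = ev (ρ (P n l9b)) 1 :=
    ev_cj hn ρ (x := zz) (c := [(1, 5), (5, 3), (3, 2), (6, 8)]) (r := l9b) (by decide) (by decide) (by decide) (by decide) 1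
  have a2 : ev (ρ' (P n zz)) 1 = ev (ρ (P n l9)) 1 := by
    show ev (ρ (cjt n (P n zz))) 1 = _
    rw [cjt_P hn (by norm_num) (by decide)]
    exact ev_cj hn ρ (c := [(1, 2), (2, 4), (4, 8), (5, 7)]) (r := l9) (by decide) (by decide) (by decide) (by decide) 1
  have a3 : ev (ρ' (P n Odd.l7)) 1 = ev (ρ (P n Odd.l7)) 1 := by
    show ev (ρ (cjt n (P n Odd.l7))) 1 = _
    rw [cjt_P hn (by norm_num) (by decide)]
    exact ev_cj hn ρ (c := [(1, 2), (2, 3), (3, 4), (4, 5), (5, 6), (7, 8)]) (r := Odd.l7) (by decide) (by decide) (by decide)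
      (by decide) 1
  have b1 : ev (ρ (P n l9b)) 1 ≤ 8 := by
    rw [← a1]
    exact (K_le hn h2').trans h7
  have b2 : ev (ρ (P n l9)) 1 ≤ 8 := by
    rw [← a2]
    refine (K_le hn h2').trans ?_
    rw [a3]
    exact h7
  have c1 : ev (V F (ψ (P n l9))) 1 % 3 ≠ 1 :=
    nine_rat h3' (x := ψ (P n l9)) (g := ψ (P n [(1, 2), (2, 4), (4, 8), (8, 7), (7, 5), (3, 6)]))
      (by rw [← map_pow, P_pow_one hn (m := 9) (by decide) (by decide), map_one])
      (rat_of hn (by decide) (by decide) (by decide))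
  have c2 : ev (V F (ψ (P n l9b))) 1 % 3 ≠ 1 :=
    nine_rat h3' (x := ψ (P n l9b)) (g := ψ (P n [(1, 8), (8, 6), (6, 2), (2, 3), (3, 5), (4, 7)]))
      (by rw [← map_pow, P_pow_one hn (m := 9) (by decide) (by decide), map_one])
      (rat_of hn (by decide) (by decide) (by decide))
  have c3 := nine_rat2 h3' (x := ψ (P n l9b)) (g := ψ (P n [(1, 8), (8, 6), (6, 2), (2, 3), (3, 5), (4, 7)]))
      (by rw [← map_pow, P_pow_one hn (m := 9) (by decide) (by decide), map_one])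
      (rat_of hn (by decide) (by decide) (by decide)) b1
  have hb : ev (V F (ψ (P n l9b))) 1 % 3 ≠ 0 := by
    have c1' : ev (V F (ψ (P n l9))) 1 % 3 ≠ 1 := c1
    omega
  refine a1.trans ?_
  rcases c3 with c3 | c3 | c3
  · exact absurd c3 hb
  · exact c3
  · exfalso
    have c9b : ev (L F (ψ (P n l9b) ^ 3)) 1 = ev (L F (ψ (P n l333))) 1 := by
      rw [← map_pow, ← P_pwl hn (m := 9) (by decide)]
      exact ev_cj hn (MonoidHom.comp (L F) ψ) (x := pwl l9b 3) (c := [(1, 4), (4, 2), (2, 7), (7, 6), (6, 3), (3, 8)])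
        (r := l333) (by decide) (by decide) (by decide) (by decide) 1
    have d1 : ev (L F (ψ (P n l9b))) 1 ≤ ev (L F (ψ (P n l333))) 1 := by
      rw [← c9b, map_pow]
      exact ev_pow_le _ 3
    rcases three h3' (x := ψ (P n l333)) (by rw [← map_pow, P_pow_one hn (m := 9) (by decide) (by decide), map_one])
      (psi_ne' hψ hn (by decide) (by decide)) with ⟨e1, e2⟩ | ⟨e1, e2⟩ | ⟨e1, e2⟩ | ⟨e1, e2⟩ | ⟨e1, e2⟩ <;> omega

/-- **the pattern (32, 20, *, 2, *) for `n ≥ 9`** -/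
theorem t1_false (h2 : (2 : F) = 0) (hψ : ∀ a, ad F (ψ a) = 1 → a = 1) (hn : 9 ≤ n)
    (h3 : ev (V F (ψ (P n l3))) 1 = 32) (h33 : ev (V F (ψ (P n l33))) 1 = 20)
    (h7 : ev (V F (ψ (P n Odd.l7))) 1 < 8) : False := by
  have h := ev_zz h2 hψ hn h3 h33 h7.le
  have h2' : ∀ w : D1 → F, w + w = 0 := fun w => by rw [← two_smul F w, h2, zero_smul]
  have h1 : ev (V F (ψ (P n zz))) 1 ≤ ev (V F (ψ (P n Odd.l7))) 1 :=
    K_le (ρ := (MonoidHom.comp (V F) ψ : Representation F ↥(alternatingGroup (Fin n)) (D1 → F))) hn h2'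
  omega

end Cfsg.Agent.R2.T1.Msk
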