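import Cfsg.Agent.R2.T1.T2p.T3n
import Cfsg.Agent.R2.T1.T2p.TabE
import Cfsg.Agent.R2.T1.T2p.GenA

/-!
# T1 (S5771, p = 2): the pattern (20, 32, 16, 20, *) for `n ≥ 10`, step 1 (helper25)

* `Z3 T` : the kernel of `1 + T + T²`; `ker3`;
* `ev_nineB` : the elements of type `3³`;
* `X_fix` : the vectors `v` with `(345) v = v` and `v + (012) v + (021) v = 0` are fixed by all even permutations which fix 0, 1, 2.
-/

set_option autoImplicit false
set_option maxRecDepth 100000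

namespace Cfsg.Agent.R2.T1.T2p

open Cfsg Cfsg.Lie Module Equiv Equiv.Perm
open Cfsg.Agent.H943.E7V.Block (D1 rho)
open Cfsg.Agent.H952.F4 (ev es)
open Cfsg.Agent.R2.T1 Cfsg.Agent.R2.T1.Art Cfsg.Agent.R2.T1.Odd
open Cfsg.Agent.R2.T1.Msk (ev_pow_le P_fix P_val three_ne)

universe u

section z3
variable {F : Type*} [Field F] {W : Type*} [AddCommGroup W] [Module F W]

/-- the kernel of `1 + T + T²` -/
def Z3 (T : Module.End F W) : Submodule F W := LinearMap.ker (1 + T + T * T)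

theorem mem_Z3 {T : Module.End F W} {v : W} : v ∈ Z3 T ↔ v + T v + T (T v) = 0 := by
  unfold Z3
  rw [LinearMap.mem_ker, LinearMap.add_apply, LinearMap.add_apply, Module.End.one_apply, Module.End.mul_apply]

theorem mem_es {T : Module.End F W} {w : W} : w ∈ es T 1 ↔ T w = w := by
  rw [es, Module.End.mem_eigenspace_iff, one_smul]

variable [FiniteDimensional F W]

theorem ker3 (h3 : (3 : F) ≠ 0) {T : Module.End F W} (hT : T ^ 3 = 1) {M : Submodule F W} (hM : ∀ v ∈ M, T v ∈ M) :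
    finrank F ↥(M ⊓ Z3 T) + finrank F ↥(M ⊓ es T 1) = finrank F ↥M := by
  let f : ↥M →ₗ[F] W := (1 + T + T * T) ∘ₗ M.subtype
  have hf : ∀ v : ↥M, f v = v + T v + T (T v) := fun _ => rfl
  have hTT : ∀ v, T (T (T v)) = v := by
    intro v
    have h := LinearMap.congr_fun hT v
    rw [pow_succ, pow_two, Module.End.mul_apply, Module.End.mul_apply] at h
    exact h
  have h1 := LinearMap.finrank_range_add_finrank_ker f
  have h2 : LinearMap.range f = M ⊓ es T 1 := by
    apply le_antisymm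
    · rintro _ ⟨v, rfl⟩
      rw [hf]
      refine ⟨M.add_mem (M.add_mem v.2 (hM _ v.2)) (hM _ (hM _ v.2)), mem_es.2 ?_⟩
      rw [map_add, map_add, hTT]
      abel
    · intro v hv
      obtain ⟨hv1, hv2⟩ := hv
      have hv2' : T v = v := mem_es.1 hv2
      refine ⟨(3 : F)⁻¹ • ⟨v, hv1⟩, ?_⟩
      rw [map_smul, hf]
      show (3 : F)⁻¹ • (v + T v + T (T v)) = v
      rw [hv2', hv2']
      have h4 : v + v + v = (3 : F) • v := by
        have : (3 : F) = 1 + 1 + 1 := by norm_num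
        rw [this, add_smul, add_smul, one_smul]
      rw [h4, smul_smul, inv_mul_cancel₀ h3, one_smul]
  have h3' : finrank F ↥(LinearMap.ker f) = finrank F ↥(M ⊓ Z3 T) := by
    have h4 : (LinearMap.ker f).map M.subtype = M ⊓ Z3 T := by
      ext v
      constructor
      · rintro ⟨w, hw, rfl⟩
        exact ⟨w.2, mem_Z3.2 (by have := LinearMap.mem_ker.1 hw; rwa [hf] at this)⟩
      · rintro ⟨hv1, hv2⟩
        exact ⟨⟨v, hv1⟩, LinearMap.mem_ker.2 (by rw [hf]; exact mem_Z3.1 hv2), rfl⟩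
    rw [← h4]
    exact (T3.finrank_map M.subtype _ fun w _ hw => Subtype.ext hw).symm
  rw [h2, h3'] at h1
  omega

end z3

/-- the 3-cycles `(012)`, `(345)`, `(678)`, `(349)` -/
def lb : List (ℕ × ℕ) := [(0, 1), (1, 2)]
def la : List (ℕ × ℕ) := [(3, 4), (4, 5)]
def lc : List (ℕ × ℕ) := [(6, 7), (7, 8)]
def la' : List (ℕ × ℕ) := [(3, 4), (4, 9)]
/-- `(36)(47)(589)` -/
def lg : List (ℕ × ℕ) := [(3, 6), (4, 7), (5, 8), (8, 9)]

section t2
variable {F : Type u} [Field F] [Finite F] {n : ℕ} [NeZero n] {ψ : ↥(alternatingGroup (Fin n)) →* Gh F}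

/-- the elements of type `3³` -/
theorem ev_nineB (h3' : (3 : F) ≠ 0) (hψ : ∀ a, ad F (ψ a) = 1 → a = 1) (hn : 9 ≤ n)
    (h3 : ev (V F (ψ (P n l3))) 1 = 20) (h33 : ev (V F (ψ (P n l33))) 1 = 32) :
    finrank F ↥(inv (MonoidHom.comp (V F) ψ : Representation F ↥(alternatingGroup (Fin n)) (D1 → F)) (Tg n gB27)) = 12 := by
  have hn8 : 8 ≤ n := by omega
  set ρ : Representation F ↥(alternatingGroup (Fin n)) (D1 → F) := MonoidHom.comp (V F) ψ with hρ
  have e0 : om ρ 1 = 56 := by rw [om_one, finrank_V]; norm_num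
  have e3 : om ρ (P n l3) = 2 := by
    rw [om_prime ρ Nat.prime_three (orderOf_P hn8 (by decide +kernel)), finrank_V, show ev (ρ (P n l3)) 1 = 20 from h3]
    norm_num
  have e33 : om ρ (P n l33) = 20 := by
    rw [om_prime ρ Nat.prime_three (orderOf_P hn8 (by decide +kernel)), finrank_V, show ev (ρ (P n l33)) 1 = 32 from h33]
    norm_num
  have e333 : om ρ (P n l333) = (3 * (ev (ρ (P n l333)) 1 : ℚ) - 56) / 2 := by
    rw [om_prime ρ Nat.prime_three (orderOf_P hn (by decide +kernel)), finrank_V]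
    norm_num
  have c9 : ev (ρ (P n l9 ^ 3)) 1 = ev (ρ (P n l333)) 1 := by
    rw [← P_pwl hn (m := 9) (by decide), ev_cj hn ρ (x := pwl l9 3) (c := [(0, 3), (3, 2), (1, 6), (4, 5), (5, 8), (8, 7)])
      (r := l333) (by decide) (by decide) (by decide) (by decide)]
  have c9b : ev (ρ (P n l9b ^ 3)) 1 = ev (ρ (P n l333)) 1 := by
    rw [← P_pwl hn (m := 9) (by decide), ev_cj hn ρ (x := pwl l9b 3) (c := [(1, 4), (4, 2), (2, 7), (7, 6), (6, 3), (3, 8)])
      (r := l333) (by decide) (by decide) (by decide) (by decide)]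
  have e9 : om ρ (P n l9) = (9 * (ev (ρ (P n l9)) 1 : ℚ) - 3 * (ev (ρ (P n l333)) 1 : ℚ)) / 6 := by
    rw [om_nine ρ (orderOf_P hn (by decide +kernel)), c9]
  have e9b : om ρ (P n l9b) = (9 * (ev (ρ (P n l9b)) 1 : ℚ) - 3 * (ev (ρ (P n l333)) 1 : ℚ)) / 6 := by
    rw [om_nine ρ (orderOf_P hn (by decide +kernel)), c9b]
  have l1 : ev (ρ (P n l9)) 1 ≤ ev (ρ (P n l333)) 1 := by
    rw [← c9, map_pow]; exact ev_pow_le _ 3
  have l2 : ev (ρ (P n l9b)) 1 ≤ ev (ρ (P n l333)) 1 := by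
    rw [← c9b, map_pow]; exact ev_pow_le _ 3
  have h27 : ((27 : ℕ) : F) ≠ 0 := by
    have : ((27 : ℕ) : F) = 3 * 3 * 3 := by norm_num
    rw [this]; exact mul_ne_zero (mul_ne_zero h3' h3') h3'
  have h81 : ((81 : ℕ) : F) ≠ 0 := by
    have : ((81 : ℕ) : F) = 3 * 3 * (3 * 3) := by norm_num
    rw [this]; exact mul_ne_zero (mul_ne_zero h3' h3') (mul_ne_zero h3' h3')
  have dB := dimC hn chkG_B27 chkC_B27 len_B27 (K := 8) rfl h27 cnt_B27 ρ
  have dW := dimC hn chkG_W81 chkC_W81 len_W81 (K := 8) rfl h81 cnt_W81 ρ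
  simp only [r9t_eq, Finset.sum_range_succ, Finset.sum_range_zero, List.getD_cons_zero, List.getD_cons_succ, P_nil,
    e0, e3, e33, e333, e9, e9b] at dB dW
  have hv := three_val h3' (x := ψ (P n l333)) (by rw [← map_pow, P_pow_one hn (m := 9) (by decide) (by decide), map_one])
    (psi_ne' hψ hn (by decide) (by decide))
  have hv' : ev (ρ (P n l333)) 1 = 2 ∨ ev (ρ (P n l333)) 1 = 14 ∨ ev (ρ (P n l333)) 1 = 20 ∨ ev (ρ (P n l333)) 1 = 32 := hv
  generalize ev (ρ (P n l333)) 1 = d at *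
  generalize ev (ρ (P n l9)) 1 = x at *
  generalize ev (ρ (P n l9b)) 1 = y at *
  generalize finrank F ↥(inv ρ (Tg n gB27)) = a at *
  generalize finrank F ↥(inv ρ (Tg n gW81)) = b at *
  push_cast at dB dW
  have k1 : 27 * (a : ℤ) = 84 + 12 * d := by
    have : 27 * (a : ℚ) = 84 + 12 * d := by linarith
    exact_mod_cast this
  have k2 : 81 * (b : ℤ) = 308 + 13 * (3 * d - 56) + 9 * (3 * x + 3 * y - 2 * d) := by
    have : 81 * (b : ℚ) = 308 + 13 * (3 * d - 56) + 9 * (3 * x + 3 * y - 2 * d) := by linarith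
    exact_mod_cast this
  rcases hv' with rfl | rfl | rfl | rfl
  · exfalso; omega
  · exfalso; omega
  · omega
  · exfalso; omega

theorem dimE (h3' : (3 : F) ≠ 0) (hn : 9 ≤ n) (h3 : ev (V F (ψ (P n l3))) 1 = 20) (h33 : ev (V F (ψ (P n l33))) 1 = 32)
    {g : List (List (ℕ × ℕ))} {e : List (List ℕ)} {d : List (ℕ × List (ℕ × ℕ))} (hG : chkG 9 g e = true)
    (hC : chkC 9 g e [] rE d = true) (hl : e.length = 9)
    (hc : (List.range 3).map (fun k => (d.map Prod.fst).count k) = [1, 4, 4]) :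
    finrank F ↥(inv (MonoidHom.comp (V F) ψ : Representation F ↥(alternatingGroup (Fin n)) (D1 → F)) (Tg n g)) = 16 := by
  have hn8 : 8 ≤ n := by omega
  set ρ : Representation F ↥(alternatingGroup (Fin n)) (D1 → F) := MonoidHom.comp (V F) ψ with hρ
  have hN : ((9 : ℕ) : F) ≠ 0 := by
    have : ((9 : ℕ) : F) = 3 * 3 := by norm_num
    rw [this]
    exact mul_ne_zero h3' h3'
  have e0 : om ρ 1 = 56 := by rw [om_one, finrank_V]; norm_num
  have e3 : om ρ (P n l3) = 2 := by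
    rw [om_prime ρ Nat.prime_three (orderOf_P hn8 (by decide +kernel)), finrank_V, show ev (ρ (P n l3)) 1 = 20 from h3]
    norm_num
  have e33 : om ρ (P n l33) = 20 := by
    rw [om_prime ρ Nat.prime_three (orderOf_P hn8 (by decide +kernel)), finrank_V, show ev (ρ (P n l33)) 1 = 32 from h33]
    norm_num
  have hrE : rE = [[], l3, l33] := by decide
  have h := dimC hn hG hC hl (K := 3) rfl hN hc ρ
  simp only [hrE, Finset.sum_range_succ, Finset.sum_range_zero, List.getD_cons_zero, List.getD_cons_succ, P_nil,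
    e0, e3, e33] at h
  generalize finrank F ↥(inv ρ (Tg n g)) = a at *
  push_cast at h
  have : (a : ℚ) = 16 := by linarith
  exact_mod_cast this

end t2

section x
variable {F : Type u} [Field F] {n : ℕ} [NeZero n] {W : Type*} [AddCommGroup W] [Module F W]
  (ρ : Representation F ↥(alternatingGroup (Fin n)) W)

theorem mem_inv_two {x y : List (ℕ × ℕ)} {v : W} : v ∈ inv ρ (Tg n [x, y]) ↔ ρ (P n x) v = v ∧ ρ (P n y) v = v := by
  unfold Tg
  rw [mem_inv_closure]
  constructor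
  · intro h
    exact ⟨h _ ⟨x, by simp, rfl⟩, h _ ⟨y, by simp, rfl⟩⟩
  · rintro ⟨h1, h2⟩ _ ⟨g, hg, rfl⟩
    simp only [List.mem_cons, List.not_mem_nil, or_false] at hg
    rcases hg with rfl | rfl
    · exact h1
    · exact h2

theorem mem_inv_three {x y z : List (ℕ × ℕ)} {v : W} : v ∈ inv ρ (Tg n [x, y, z]) ↔
    ρ (P n x) v = v ∧ ρ (P n y) v = v ∧ ρ (P n z) v = v := by
  unfold Tg
  rw [mem_inv_closure]
  constructor
  · intro h
    exact ⟨h _ ⟨x, by simp, rfl⟩, h _ ⟨y, by simp, rfl⟩, h _ ⟨z, by simp, rfl⟩⟩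
  · rintro ⟨h1, h2, h3⟩ _ ⟨g, hg, rfl⟩
    simp only [List.mem_cons, List.not_mem_nil, or_false] at hg
    rcases hg with rfl | rfl | rfl
    · exact h1
    · exact h2
    · exact h3

/-- commuting words -/
theorem comm_of {m : ℕ} (hm : m ≤ n) {x y : List (ℕ × ℕ)} (hx : vl m x = true) (hy : vl m y = true)
    (h : cd m (x ++ y) = cd m (y ++ x)) (v : W) : ρ (P n x) (ρ (P n y) v) = ρ (P n y) (ρ (P n x) v) := by
  rw [← Module.End.mul_apply, ← Module.End.mul_apply, ← map_mul, ← map_mul, ← P_append hm hx hy, ← P_append hm hy hx,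
    (P_eq_iff hm (vl_append hx hy) (vl_append hy hx)).2 h]

/-- conjugate words -/
theorem conj_of {m : ℕ} (hm : m ≤ n) {x y g : List (ℕ × ℕ)} (hx : vl m x = true) (hy : vl m y = true) (hg : vl m g = true)
    (h : cd m (g ++ x) = cd m (y ++ g)) (v : W) : ρ (P n g) (ρ (P n x) v) = ρ (P n y) (ρ (P n g) v) := by
  rw [← Module.End.mul_apply, ← Module.End.mul_apply, ← map_mul, ← map_mul, ← P_append hm hg hx, ← P_append hm hy hg,
    (P_eq_iff hm (vl_append hg hx) (vl_append hy hg)).2 h]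

/-- the space `X` -/
noncomputable def XX : Submodule F W := es (ρ (P n la)) 1 ⊓ Z3 (ρ (P n lb))

variable {ρ}

theorem mem_XX {v : W} : v ∈ XX ρ ↔ ρ (P n la) v = v ∧ v + ρ (P n lb) v + ρ (P n lb) (ρ (P n lb) v) = 0 := by
  unfold XX
  rw [Submodule.mem_inf, mem_es, mem_Z3]

variable [FiniteDimensional F W] (h3 : (3 : F) ≠ 0) (hn : 10 ≤ n) (ha : ev (ρ (P n la)) 1 = 20)
  (hE1 : finrank F ↥(inv ρ (Tg n gE1)) = 16) (hE2 : finrank F ↥(inv ρ (Tg n gE2)) = 16)
  (hB : finrank F ↥(inv ρ (Tg n gB27)) = 12)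

include h3 hn ha hE1

theorem dim_XX : finrank F ↥(XX ρ) = 4 := by
  have hn9 : 9 ≤ n := by omega
  have hbc : ρ (P n lb) ^ 3 = 1 := by rw [← map_pow, P_pow_one hn9 (m := 9) (by decide) (by decide), map_one]
  have h := ker3 h3 hbc (M := es (ρ (P n la)) 1) (fun v hv => by
    rw [mem_es] at hv ⊢
    rw [comm_of ρ hn9 (x := la) (y := lb) (by decide) (by decide) (by decide), hv])
  have h1 : es (ρ (P n la)) 1 ⊓ es (ρ (P n lb)) 1 = inv ρ (Tg n gE1) := by
    ext v
    rw [Submodule.mem_inf, mem_es, mem_es]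
    exact ⟨fun h => (mem_inv_two ρ).2 ⟨h.2, h.1⟩, fun h => ⟨((mem_inv_two ρ).1 h).2, ((mem_inv_two ρ).1 h).1⟩⟩
  rw [h1, hE1] at h
  have h4 : finrank F ↥(es (ρ (P n la)) 1) = 20 := ha
  rw [h4] at h
  unfold XX
  omega

include hE2 hB

/-- `(678)` fixes `X` -/
theorem XX_c {v : W} (hv : v ∈ XX ρ) : ρ (P n lc) v = v := by
  have hn9 : 9 ≤ n := by omega
  have hbc : ρ (P n lb) ^ 3 = 1 := by rw [← map_pow, P_pow_one hn9 (m := 9) (by decide) (by decide), map_one]
  have h := ker3 h3 hbc (M := es (ρ (P n la)) 1 ⊓ es (ρ (P n lc)) 1) (fun v hv => by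
    rw [Submodule.mem_inf, mem_es, mem_es] at hv ⊢
    rw [comm_of ρ hn9 (x := la) (y := lb) (by decide) (by decide) (by decide), hv.1,
      comm_of ρ hn9 (x := lc) (y := lb) (by decide) (by decide) (by decide), hv.2]
    exact ⟨rfl, rfl⟩)
  have h1 : es (ρ (P n la)) 1 ⊓ es (ρ (P n lc)) 1 = inv ρ (Tg n gE2) := by
    ext v
    rw [Submodule.mem_inf, mem_es, mem_es]
    exact (mem_inv_two ρ).symm
  have h2 : es (ρ (P n la)) 1 ⊓ es (ρ (P n lc)) 1 ⊓ es (ρ (P n lb)) 1 = inv ρ (Tg n gB27) := by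
    ext v
    rw [Submodule.mem_inf, Submodule.mem_inf, mem_es, mem_es, mem_es]
    constructor
    · rintro ⟨⟨h1, h2⟩, h3⟩
      exact (mem_inv_three ρ).2 ⟨h3, h1, h2⟩
    · intro h
      obtain ⟨h1, h2, h3⟩ := (mem_inv_three ρ).1 h
      exact ⟨⟨h2, h3⟩, h1⟩
  rw [h2, hB, h1, hE2, ← h1] at h
  have h5 : es (ρ (P n la)) 1 ⊓ es (ρ (P n lc)) 1 ⊓ Z3 (ρ (P n lb)) = XX ρ := by
    apply Submodule.eq_of_le_of_finrank_eq
    · unfold XX
      exact inf_le_inf_right _ inf_le_left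
    · rw [dim_XX h3 hn ha hE1]
      omega
  rw [← h5] at hv
  exact mem_es.1 hv.1.2

/-- `(349)` fixes `X` -/
theorem XX_a' {v : W} (hv : v ∈ XX ρ) : ρ (P n la') v = v := by
  have hc := XX_c h3 hn ha hE1 hE2 hB hv
  rw [mem_XX] at hv
  -- the vector `g⁻¹ v`
  have hginv : ∀ w, ρ (P n lg) (ρ (P n lg)⁻¹ w) = w := fun w => by
    rw [← Module.End.mul_apply, ← map_mul, mul_inv_cancel, map_one]; rfl
  have hginj : Function.Injective (ρ (P n lg)) := by
    intro x y hxy
    have h1 := congrArg (ρ (P n lg)⁻¹) hxy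
    rwa [← Module.End.mul_apply, ← Module.End.mul_apply, ← map_mul, inv_mul_cancel, map_one] at h1
  set w := ρ (P n lg)⁻¹ v with hw
  have hgw : ρ (P n lg) w = v := hginv v
  have h1 : w ∈ XX ρ := by
    rw [mem_XX]
    constructor
    · apply hginj
      rw [conj_of ρ hn (x := la) (y := lc) (g := lg) (by decide) (by decide) (by decide) (by decide), hgw, hc]
    · apply hginj
      rw [map_add, map_add, map_zero, conj_of ρ hn (x := lb) (y := lb) (g := lg) (by decide) (by decide) (by decide) (by decide),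
        conj_of ρ hn (x := lb) (y := lb) (g := lg) (by decide) (by decide) (by decide) (by decide),
        conj_of ρ hn (x := lb) (y := lb) (g := lg) (by decide) (by decide) (by decide) (by decide), hgw]
      exact hv.2
  have h2 := XX_c h3 hn ha hE1 hE2 hB h1
  have h4 := congrArg (ρ (P n lg)) h2
  rw [conj_of ρ hn (x := lc) (y := la') (g := lg) (by decide) (by decide) (by decide) (by decide), hgw] at h4
  exact h4

end x

end Cfsg.Agent.R2.T1.T2p
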