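import Cfsg.Agent.R2.T1.T2p.T2a
import Cfsg.Agent.R2.T1.T2p.Base

/-!
# T1 (S5771, p = 2): the pattern (20, 32, 16, 20, *) for `n ≥ 10`, step 2 (helper25)

* `XX_fix` : the vectors of `XX` are fixed by all even permutations which fix 0, 1, 2;
* `eps_X` : `ε v = v` for `v ∈ XX`; `fix_d` : if moreover `(01)(34) v = v` then `(234) v = v`;
* `exists_u` : a nonzero vector of `US ψ 0 1` with `v + (012) v + (021) v = 0`.
-/

set_option autoImplicit false
set_option maxRecDepth 100000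

namespace Cfsg.Agent.R2.T1.T2p

open Cfsg Cfsg.Lie Module Equiv Equiv.Perm
open Cfsg.Agent.H943.E7V.Block (D1 rho)
open Cfsg.Agent.H952.F4 (ev es)
open Cfsg.Agent.R2.T1 Cfsg.Agent.R2.T1.Art Cfsg.Agent.R2.T1.Odd
open Cfsg.Agent.R2.T1.Msk (P_fix P_val Op eval Db Dt chkb chkt ee e3 e5 c1 c2 c2' c3 m2 h2 ha hb wd3 cd_wd3 sumM gv sumM_one
  sumM_xor sms stps wok Op_cons Op_nil)

universe u

section fixX
variable {F : Type u} [Field F] {n : ℕ} [NeZero n] {W : Type*} [AddCommGroup W] [Module F W]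
  {ρ : Representation F ↥(alternatingGroup (Fin n)) W}

theorem comm_disj {m : ℕ} (hm : m ≤ n) {G : ↥(alternatingGroup (Fin n))} {l : List (ℕ × ℕ)} (hl : vl m l = true)
    (hG : ∀ i : Fin n, i.val < m → (G : Perm (Fin n)) i = i) : G * P n l = P n l * G := by
  apply Subtype.ext
  have h : Disjoint (G : Perm (Fin n)) (P n l : Perm (Fin n)) := by
    intro x
    by_cases hx : x.val < m
    · exact Or.inl (hG x hx)
    · exact Or.inr (P_fix hm hl (by omega))
  exact h.commute.eq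

theorem rho_mul' (a b : ↥(alternatingGroup (Fin n))) (w : W) : ρ (a * b) w = ρ a (ρ b w) := by
  rw [map_mul, Module.End.mul_apply]

theorem rho_inv_fix {a : ↥(alternatingGroup (Fin n))} {w : W} (h : ρ a w = w) : ρ a⁻¹ w = w := by
  nth_rewrite 1 [← h]
  rw [← rho_mul', inv_mul_cancel, map_one]; rfl

theorem XX_act {G : ↥(alternatingGroup (Fin n))} (hn : 6 ≤ n) (hG : ∀ i : Fin n, i.val < 6 → (G : Perm (Fin n)) i = i) {v : W}
    (hv : v ∈ XX ρ) : ρ G v ∈ XX ρ := by
  rw [mem_XX] at hv ⊢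
  have h1 := comm_disj (m := 6) hn (G := G) (l := la) (by decide) hG
  have h2 := comm_disj (m := 6) hn (G := G) (l := lb) (by decide) hG
  have h2' : ∀ w, ρ (P n lb) (ρ G w) = ρ G (ρ (P n lb) w) := fun w => by rw [← rho_mul', ← h2, rho_mul']
  refine ⟨?_, ?_⟩
  · rw [← rho_mul', ← h1, rho_mul', hv.1]
  · rw [h2', h2', ← map_add, ← map_add, hv.2, map_zero]

variable [FiniteDimensional F W] (h3 : (3 : F) ≠ 0) (hn : 10 ≤ n) (ha : ev (ρ (P n la)) 1 = 20)
  (hE1 : finrank F ↥(inv ρ (Tg n gE1)) = 16) (hE2 : finrank F ↥(inv ρ (Tg n gE2)) = 16)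
  (hB : finrank F ↥(inv ρ (Tg n gB27)) = 12)

include h3 hn ha hE1 hE2 hB

theorem XX_fix {v : W} (hv : v ∈ XX ρ) {a : ↥(alternatingGroup (Fin n))} (h : ∀ i : Fin n, i.val < 3 → (a : Perm (Fin n)) i = i) :
    ρ a v = v := by
  let S : Subgroup ↥(alternatingGroup (Fin n)) :=
    { carrier := {a | ρ a v = v}
      one_mem' := by show ρ 1 v = v; rw [map_one]; rfl
      mul_mem' := by
        intro x y hx hy
        show ρ (x * y) v = v
        rw [rho_mul', show ρ y v = v from hy]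
        exact hx
      inv_mem' := fun hx => rho_inv_fix hx }
  have hS : ∀ a, a ∈ S ↔ ρ a v = v := fun a => Iff.rfl
  set p3 : Fin n := ⟨3, by omega⟩ with hp3
  set p4 : Fin n := ⟨4, by omega⟩ with hp4
  have h34 : p3 ≠ p4 := by simp [hp3, hp4]
  have hof : ∀ (k : ℕ) (hk : k < n), Fin.ofNat n k = ⟨k, hk⟩ := fun k hk => Fin.ext (val_ofNat' hk)
  have hinv : ∀ k : Fin n, k ≠ p3 → k ≠ p4 → swap p3 p4 * swap p3 k = (swap p3 p4 * swap p4 k)⁻¹ := by
    intro k hk3 hk4
    rw [mul_inv_rev, swap_inv, swap_inv]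
    have h2 := Equiv.mul_swap_eq_swap_mul (swap p3 p4) p3 k
    rw [swap_apply_left, swap_apply_of_ne_of_ne hk3 hk4] at h2
    exact h2
  rw [← hS]
  refine gen_alt S (fun i => 3 ≤ i.val) h34 (by show 3 ≤ 3; exact le_rfl) ?_ a (fun i hi => h i (by omega))
  intro k hk hk0 a hak
  have hk3 : k.val ≠ 3 := fun h => hk0 (Fin.ext h)
  by_cases hk4 : k = p4
  · have h1 : a = 1 := Subtype.ext (by rw [hak, hk4, swap_mul_self]; rfl)
    rw [h1]; exact one_mem S
  have hk4' : k.val ≠ 4 := fun h => hk4 (Fin.ext h)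
  by_cases hk5 : k.val = 5
  · have h1 : a = (P n la)⁻¹ := by
      apply Subtype.ext
      rw [hak, hinv k hk0 hk4]
      show _ = ((P n la : ↥(alternatingGroup (Fin n))) : Perm (Fin n))⁻¹
      rw [coe_P (m := 6) (by omega) (by decide)]
      unfold la
      rw [pm_cons, pm_cons, pm_nil, mul_one, hof 3 (by omega), hof 4 (by omega), hof 5 (by omega)]
      have : k = ⟨5, by omega⟩ := Fin.ext hk5
      rw [this]
    rw [h1]
    exact inv_mem ((hS _).2 (mem_XX.1 hv).1)
  have hk6 : 6 ≤ k.val := by omega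
  -- the vector is fixed by `(349)`
  set p9 : Fin n := ⟨9, by omega⟩ with hp9
  have hkey : ∀ w ∈ XX ρ, ρ (P n la') w = w := fun w hw => XX_a' h3 hn ha hE1 hE2 hB hw
  have hla' : ((P n la' : ↥(alternatingGroup (Fin n))) : Perm (Fin n)) = swap p3 p4 * swap p4 p9 := by
    rw [coe_P hn (by decide)]
    unfold la'
    rw [pm_cons, pm_cons, pm_nil, mul_one, hof 3 (by omega), hof 4 (by omega), hof 9 (by omega)]
  by_cases hk9 : k = p9
  · have h1 : a = (P n la')⁻¹ := by
      apply Subtype.ext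
      rw [hak, hinv k hk0 hk4, hk9]
      show _ = ((P n la' : ↥(alternatingGroup (Fin n))) : Perm (Fin n))⁻¹
      rw [hla']
    rw [h1]
    exact inv_mem ((hS _).2 (hkey v hv))
  obtain ⟨c, d, hcd, hck, hdk, hc6, hc9, hd6, hd9⟩ : ∃ c d : Fin n, c ≠ d ∧ c ≠ k ∧ d ≠ k ∧ 6 ≤ c.val ∧ c.val < 9 ∧ 6 ≤ d.val ∧
      d.val < 9 := by
    by_cases h6 : k.val = 6
    · exact ⟨⟨7, by omega⟩, ⟨8, by omega⟩, by simp, fun h => by rw [← h] at h6; simp at h6,
        fun h => by rw [← h] at h6; simp at h6, by simp, by simp, by simp, by simp⟩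
    · by_cases h7 : k.val = 7
      · exact ⟨⟨6, by omega⟩, ⟨8, by omega⟩, by simp, fun h => by rw [← h] at h7; simp at h7,
          fun h => by rw [← h] at h7; simp at h7, by simp, by simp, by simp, by simp⟩
      · exact ⟨⟨6, by omega⟩, ⟨7, by omega⟩, by simp, fun h => by rw [← h] at h6; simp at h6,
          fun h => by rw [← h] at h7; simp at h7, by simp, by simp, by simp, by simp⟩
  have hGe : swap p9 k * swap c d ∈ alternatingGroup (Fin n) := by
    rw [mem_alternatingGroup, Perm.sign_mul, sign_swap (Ne.symm hk9), sign_swap hcd]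
    decide
  set G : ↥(alternatingGroup (Fin n)) := ⟨swap p9 k * swap c d, hGe⟩ with hG
  have hval : ∀ x y : Fin n, x.val ≠ y.val → x ≠ y := fun x y h h' => h (by rw [h'])
  have hGfix : ∀ i : Fin n, i.val < 6 → (G : Perm (Fin n)) i = i := by
    intro i hi
    show swap p9 k (swap c d i) = i
    rw [swap_apply_of_ne_of_ne (a := c) (b := d) (hval _ _ (by omega)) (hval _ _ (by omega)),
      swap_apply_of_ne_of_ne (a := p9) (b := k) (hval _ _ (by show i.val ≠ 9; omega)) (hval _ _ (by omega))]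
  have hG9 : (G : Perm (Fin n)) p9 = k := by
    show swap p9 k (swap c d p9) = k
    rw [swap_apply_of_ne_of_ne (a := c) (b := d) (hval _ _ (by show 9 ≠ c.val; omega)) (hval _ _ (by show 9 ≠ d.val; omega)),
      swap_apply_left]
  have h1 : a = G * (P n la')⁻¹ * G⁻¹ := by
    rw [eq_mul_inv_iff_mul_eq]
    apply Subtype.ext
    show (a : Perm (Fin n)) * (G : Perm (Fin n)) = (G : Perm (Fin n)) * ((P n la' : ↥(alternatingGroup (Fin n))) : Perm (Fin n))⁻¹
    have e4 : (G : Perm (Fin n)) p4 = p4 := hGfix p4 (by show 4 < 6; norm_num)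
    have e3 : (G : Perm (Fin n)) p3 = p3 := hGfix p3 (by show 3 < 6; norm_num)
    have hc : ∀ x y, (G : Perm (Fin n)) * swap x y = swap ((G : Perm (Fin n)) x) ((G : Perm (Fin n)) y) * (G : Perm (Fin n)) :=
      fun x y => Equiv.mul_swap_eq_swap_mul _ _ _
    have hr : (G : Perm (Fin n)) * (swap p4 p9 * swap p3 p4) = swap p4 k * swap p3 p4 * (G : Perm (Fin n)) := by
      rw [← mul_assoc (G : Perm (Fin n)), hc, mul_assoc, hc, e3, e4, hG9, ← mul_assoc]
    rw [hak, hinv k hk0 hk4, hla', mul_inv_rev, mul_inv_rev, swap_inv, swap_inv, swap_inv, hr]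
  rw [h1, hS, rho_mul', rho_mul']
  have hGi : ρ G⁻¹ v ∈ XX ρ := XX_act (by omega) (fun i hi => by
    show (G : Perm (Fin n))⁻¹ i = i
    rw [Perm.inv_eq_iff_eq, hGfix i hi]) hv
  rw [rho_inv_fix (hkey _ hGi), ← rho_mul', mul_inv_cancel, map_one]
  rfl

end fixX

end Cfsg.Agent.R2.T1.T2p
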