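import Cfsg.Agent.R2.T1.T2p.T2b

/-!
# T1 (S5771, p = 2): the pattern (20, 32, 16, 20, *) for `n ≥ 10`, step 2 (helper25)

* `eps_X` : `ε v = v` for `v ∈ XX`; `fix_d` : if moreover `(01)(34) v = v` then `(234) v = v`;
* `exists_u` : a nonzero vector fixed by all even permutations which fix 0 and 1, with `v + (012) v + (021) v = 0`.
-/

set_option autoImplicit false
set_option maxRecDepth 100000

namespace Cfsg.Agent.R2.T1.T2p

open Cfsg Cfsg.Lie Module Equiv Equiv.Perm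
open Cfsg.Agent.H943.E7V.Block (D1 rho)
open Cfsg.Agent.H952.F4 (ev es)
open Cfsg.Agent.R2.T1 Cfsg.Agent.R2.T1.Art Cfsg.Agent.R2.T1.Odd
open Cfsg.Agent.R2.T1.Msk (P_fix P_val Op eval Db Dt chkb chkt ee e3 e5 c1 c2 c2' c3 m2 h2 ha hb wd3 cd_wd3 sumM gv sumM_one
  sumM_xor sms stps wok Op_cons Op_nil Op_fix)

universe u

section eps
variable {F : Type u} [Field F] {n : ℕ} [NeZero n] {W : Type*} [AddCommGroup W] [Module F W]
  {ρ : Representation F ↥(alternatingGroup (Fin n)) W}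

/-- `(01)(34)`, `(567)`, `(01234)`, `(01234)(567)`, `(234)` -/
def ltt : List (ℕ × ℕ) := [(0, 1), (3, 4)]
def l567 : List (ℕ × ℕ) := [(5, 6), (6, 7)]
def lx : List (ℕ × ℕ) := [(0, 1), (1, 2), (2, 3), (3, 4)]
def l53 : List (ℕ × ℕ) := [(0, 1), (1, 2), (2, 3), (3, 4), (5, 6), (6, 7)]
def ld : List (ℕ × ℕ) := [(2, 3), (3, 4)]

theorem Db_gens : Db.gens = [lb, lx] := by decide
theorem Dt_gens : Dt.gens = Db.gens := by decide

theorem Op_add (gens : List (List (ℕ × ℕ))) (ws : List (List ℕ)) (v w : W) :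
    Op ρ gens ws (v + w) = Op ρ gens ws v + Op ρ gens ws w := map_add _ _ _

/-- operators commute with elements with disjoint support -/
theorem Op_comm (hn : 5 ≤ n) {G : ↥(alternatingGroup (Fin n))} (hG : ∀ i : Fin n, i.val < 5 → (G : Perm (Fin n)) i = i)
    (ws : List (List ℕ)) (v : W) : Op ρ Db.gens ws (ρ G v) = ρ G (Op ρ Db.gens ws v) := by
  induction ws with
  | nil => rw [Op_nil, LinearMap.zero_apply, LinearMap.zero_apply, map_zero]
  | cons w ws ih =>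
    rw [Op_cons, Op_cons, ih, map_add, ← rho_mul', ← rho_mul',
      comm_disj hn (G := G) (l := wd Db.gens w) (vl_wd (by decide) w) hG]

theorem Op_e3 (hn : 5 ≤ n) (v : W) : Op ρ Db.gens e3 v = v + ρ (P n lb) v + ρ (P n lb) (ρ (P n lb) v) := by
  unfold e3
  rw [Op_cons, Op_cons, Op_cons, Op_nil, LinearMap.zero_apply, add_zero]
  have h0 : wd Db.gens [] = [] := rfl
  have h1 : wd Db.gens [0] = lb := by decide
  have h2 : wd Db.gens [0, 0] = lb ++ lb := by decide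
  rw [h0, h1, h2, P_nil, map_one, P_append hn (m := 5) (by decide) (by decide), rho_mul', add_assoc]
  rfl

/-- the operator `θ` -/
noncomputable def Th (ρ : Representation F ↥(alternatingGroup (Fin n)) W) : W →ₗ[F] W :=
  (Op ρ Db.gens [[1, 1]] + Op ρ Db.gens e3 ∘ₗ Op ρ Db.gens [[1, 1]]) ∘ₗ Op ρ Db.gens ee

theorem Th_apply (v : W) : Th ρ v = Op ρ Db.gens [[1, 1]] (Op ρ Db.gens ee v) +
    Op ρ Db.gens e3 (Op ρ Db.gens [[1, 1]] (Op ρ Db.gens ee v)) := rfl

section cert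
variable (hn : 5 ≤ n) (h2' : ∀ w : W, w + w = 0) {v : W} (hv : ρ (P n lb) v = v)

include hn h2' hv

theorem f1 : Op ρ Db.gens e3 (Op ρ Db.gens e5 v) = v + Op ρ Db.gens ee v := by
  have h := sumM_one (ρ := ρ) (D := Db) (v := v) rfl
  have h1 : Op ρ Db.gens e3 (Op ρ Db.gens e5 (sumM (gv ρ Db v) 1)) = sumM (gv ρ Db v) 1 + Op ρ Db.gens ee (sumM (gv ρ Db v) 1) := by
    rw [eval hn h2' chkb hv (by decide), eval hn h2' chkb hv (by decide), eval hn h2' chkb hv (by decide), c1]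
    exact sumM_xor h2' _ _ _
  rw [h] at h1
  exact h1

theorem fTh : Th ρ v = sumM (gv ρ Db v) m2 := by
  have h := sumM_one (ρ := ρ) (D := Db) (v := v) rfl
  rw [Th_apply]
  nth_rewrite 1 [← h]
  nth_rewrite 2 [← h]
  rw [eval hn h2' chkb hv (by decide), eval hn h2' chkb hv (by decide), eval hn h2' chkb hv (by decide)]
  exact (sumM_xor h2' _ _ _).symm

theorem f2 : Op ρ Db.gens h2 (Th ρ v) = Op ρ Db.gens ee v := by
  have h := sumM_one (ρ := ρ) (D := Db) (v := v) rfl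
  rw [fTh hn h2' hv, eval hn h2' chkb hv (by decide), c2, ← eval hn h2' chkb hv (by decide), h]

theorem f3 : Op ρ Db.gens ee (Th ρ v) = Th ρ v := by
  rw [fTh hn h2' hv, eval hn h2' chkb hv (by decide), c2']

theorem f4 : Op ρ Db.gens e3 (Th ρ v) = 0 := by
  rw [fTh hn h2' hv, eval hn h2' chkb hv (by decide)]
  have : sms Db.tab e3 m2 = 0 := by decide +kernel
  rw [this, Msk.sumM_zero]

end cert

/-- `v + (234) v` -/
theorem f5 (hn : 5 ≤ n) (h2' : ∀ w : W, w + w = 0) {v : W} (ht : ρ (P n ltt) v = v)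
    (he : Op ρ Db.gens ee v = v) (hb3 : Op ρ Db.gens e3 v = 0) : ρ (P n ld) v = v := by
  have h := sumM_one (ρ := ρ) (D := Dt) (v := v) rfl
  have hev := fun (ws : List (List ℕ)) (hw : wok Dt ws = true) (a : ℕ) =>
    eval (ρ := ρ) (m := 5) hn h2' chkt ht (ws := ws) hw a
  have key := c3
  have h1 : sumM (gv ρ Dt v) (Nat.xor 1 (stps Dt.tab wd3 1)) = v + ρ (P n (wd Dt.gens wd3)) v := by
    have h3 : sumM (gv ρ Dt v) (Nat.xor 1 (stps Dt.tab wd3 1)) = sumM (gv ρ Dt v) 1 + sumM (gv ρ Dt v) (stps Dt.tab wd3 1) :=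
      sumM_xor h2' _ _ _
    rw [h3, h, ← Msk.word_spec hn h2' chkt ht (by decide), h]
  have h4 : sumM (gv ρ Dt v) (Nat.xor 1 (sms Dt.tab ee 1)) = v + Op ρ Dt.gens ee v := by
    have h3 : sumM (gv ρ Dt v) (Nat.xor 1 (sms Dt.tab ee 1)) = sumM (gv ρ Dt v) 1 + sumM (gv ρ Dt v) (sms Dt.tab ee 1) :=
      sumM_xor h2' _ _ _
    rw [h3, ← hev ee (by decide), h]
  have h5 : sumM (gv ρ Dt v) (sms Dt.tab e3 1) = Op ρ Dt.gens e3 v := by
    rw [← hev e3 (by decide), h]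
  rw [key] at h1
  have h6 : sumM (gv ρ Dt v) (Nat.xor (sms Dt.tab ha (Nat.xor 1 (sms Dt.tab ee 1))) (sms Dt.tab hb (sms Dt.tab e3 1))) =
      sumM (gv ρ Dt v) (sms Dt.tab ha (Nat.xor 1 (sms Dt.tab ee 1))) + sumM (gv ρ Dt v) (sms Dt.tab hb (sms Dt.tab e3 1)) :=
    sumM_xor h2' _ _ _
  rw [h6, ← hev ha (by decide), ← hev hb (by decide), h4, h5, Dt_gens, he, hb3, h2', map_zero, map_zero, add_zero] at h1
  have h7 : P n (wd Db.gens wd3) = P n ld := by
    rw [P_eq_iff hn (vl_wd (by decide) _) (by decide), ← Dt_gens]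
    exact cd_wd3
  rw [h7] at h1
  have h8 : -v = v := neg_eq_of_add_eq_zero_left (h2' v)
  exact (neg_eq_of_add_eq_zero_right h1.symm).symm.trans h8

end eps

section X
variable {F : Type u} [Field F] {n : ℕ} [NeZero n] {W : Type*} [AddCommGroup W] [Module F W]
  {ρ : Representation F ↥(alternatingGroup (Fin n)) W}
variable [FiniteDimensional F W] (h3 : (3 : F) ≠ 0) (h2' : ∀ w : W, w + w = 0) (hn : 10 ≤ n) (ha : ev (ρ (P n l567)) 1 = 20)
  (hE3 : finrank F ↥(inv ρ (Tg n gE3)) = 16) (h53 : ev (ρ (P n l53)) 1 ≤ 12)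

include h3 h2' hn ha hE3 h53

/-- `ε v = v` -/
theorem eps_Z {v : W} (hv : ρ (P n l567) v = v) (hv3 : v + ρ (P n lb) v + ρ (P n lb) (ρ (P n lb) v) = 0) :
    Op ρ Db.gens ee v = v := by
  have hn9 : 9 ≤ n := by omega
  have hn5 : 5 ≤ n := by omega
  set M' : Submodule F W := es (ρ (P n l567)) 1 with hM'
  set N : Submodule F W := M' ⊓ es (ρ (P n lb)) 1 with hN
  have hfix567 : ∀ i : Fin n, i.val < 5 → ((P n l567 : ↥(alternatingGroup (Fin n))) : Perm (Fin n)) i = i := by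
    intro i hi
    apply Fin.ext
    rw [P_val (m := 8) (by omega) (by decide)]
    have : i.val = 0 ∨ i.val = 1 ∨ i.val = 2 ∨ i.val = 3 ∨ i.val = 4 := by omega
    rcases this with h | h | h | h | h <;> rw [h] <;> decide
  have hOpM : ∀ (ws : List (List ℕ)) (w : W), w ∈ M' → Op ρ Db.gens ws w ∈ M' := by
    intro ws w hw
    rw [hM', mem_es] at hw ⊢
    rw [← Op_comm hn5 hfix567, hw]
  have hNdim : finrank F ↥N = 16 := by
    have h1 : N = inv ρ (Tg n gE3) := by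
      ext w
      rw [hN, hM', Submodule.mem_inf, mem_es, mem_es]
      exact ⟨fun h => (mem_inv_two ρ).2 ⟨h.2, h.1⟩, fun h => ⟨((mem_inv_two ρ).1 h).2, ((mem_inv_two ρ).1 h).1⟩⟩
    rw [h1, hE3]
  have hZdim : finrank F ↥(M' ⊓ Z3 (ρ (P n lb))) = 4 := by
    have hbc : ρ (P n lb) ^ 3 = 1 := by rw [← map_pow, P_pow_one hn9 (m := 9) (by decide) (by decide), map_one]
    have h := ker3 h3 hbc (M := M') (fun w hw => by
      rw [hM', mem_es] at hw ⊢
      rw [comm_of ρ hn9 (x := l567) (y := lb) (by decide) (by decide) (by decide), hw])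
    have h4 : finrank F ↥M' = 20 := ha
    rw [h4] at h
    have h5 : finrank F ↥(M' ⊓ es (ρ (P n lb)) 1) = 16 := hNdim
    omega
  -- the map `θ` on `N`
  let f : ↥N →ₗ[F] W := Th ρ ∘ₗ N.subtype
  have hf : ∀ w : ↥N, f w = Th ρ w := fun _ => rfl
  have hb : ∀ w : ↥N, ρ (P n lb) (w : W) = w := fun w => mem_es.1 w.2.2
  have h1 := LinearMap.finrank_range_add_finrank_ker f
  -- the kernel
  have hker : finrank F ↥(LinearMap.ker f) ≤ 12 := by
    have e1 : finrank F ↥(((LinearMap.ker f).map N.subtype).map (Op ρ Db.gens e5)) = finrank F ↥((LinearMap.ker f).map N.subtype) := by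
      refine T3.finrank_map _ _ fun w hw h0 => ?_
      obtain ⟨w', hw', rfl⟩ := hw
      have h4 := f1 hn5 h2' (hb w')
      have h0' : Op ρ Db.gens e5 (w' : W) = 0 := h0
      have h5 : Th ρ (w' : W) = 0 := LinearMap.mem_ker.1 hw'
      have h6 := f2 hn5 h2' (hb w')
      rw [h5, map_zero] at h6
      rw [h0', map_zero, ← h6, add_zero] at h4
      exact h4.symm
    have e2 : finrank F ↥((LinearMap.ker f).map N.subtype) = finrank F ↥(LinearMap.ker f) :=
      T3.finrank_map N.subtype _ fun w _ hw => Subtype.ext hw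
    have e3' : ((LinearMap.ker f).map N.subtype).map (Op ρ Db.gens e5) ≤ es (ρ (P n l53)) 1 := by
      rintro _ ⟨_, ⟨w', hw', rfl⟩, rfl⟩
      rw [mem_es]
      have h4 : P n l53 = P n lx * P n l567 := by
        have h5 : l53 = lx ++ l567 := rfl
        rw [h5, P_append hn9 (m := 9) (by decide) (by decide)]
      have h5 : Op ρ Db.gens e5 (w' : W) ∈ M' := hOpM _ _ w'.2.1
      have h6 : ρ (P n lx) (Op ρ Db.gens e5 (w' : W)) = Op ρ Db.gens e5 (w' : W) := by
        have h7 : e5 = (List.range 5).map fun k => List.replicate k 1 := by decide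
        rw [h7]
        exact Op_fix ρ hn9 (gens := Db.gens) (i := 1) (N := 5) (by decide) (by decide) _
      show ρ (P n l53) (Op ρ Db.gens e5 (w' : W)) = Op ρ Db.gens e5 (w' : W)
      rw [h4, rho_mul', mem_es.1 h5, h6]
    have h8 := Submodule.finrank_mono e3'
    rw [e1, e2] at h8
    exact h8.trans h53
  have hrange : LinearMap.range f ≤ M' ⊓ Z3 (ρ (P n lb)) := by
    rintro _ ⟨w, rfl⟩
    refine ⟨?_, mem_Z3.2 ?_⟩
    · rw [hf, Th_apply]
      exact M'.add_mem (hOpM _ _ (hOpM _ _ w.2.1)) (hOpM _ _ (hOpM _ _ (hOpM _ _ w.2.1)))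
    · rw [hf, ← Op_e3 hn5, f4 hn5 h2' (hb w)]
  have hle := Submodule.finrank_mono hrange
  have heq : LinearMap.range f = M' ⊓ Z3 (ρ (P n lb)) := by
    apply Submodule.eq_of_le_of_finrank_le hrange
    rw [hZdim]
    rw [hNdim] at h1
    omega
  have hvZ : v ∈ M' ⊓ Z3 (ρ (P n lb)) := ⟨mem_es.2 hv, mem_Z3.2 hv3⟩
  rw [← heq] at hvZ
  obtain ⟨w, rfl⟩ := hvZ
  exact f3 hn5 h2' (hb w)

end X

end Cfsg.Agent.R2.T1.T2p
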