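import Cfsg.Agent.R2.T1.T2p.T2c

/-!
# T1 (S5771, p = 2): the pattern (20, 32, 16, 20, *) for `n ≥ 10`, step 2 (helper25)

* `exists_u` : a nonzero vector fixed by all even permutations which fix 0 and 1, with `v + (012) v + (021) v = 0`.
-/

set_option autoImplicit false
set_option maxRecDepth 100000

namespace Cfsg.Agent.R2.T1.T2p

open Cfsg Cfsg.Lie Module Equiv Equiv.Perm
open Cfsg.Agent.H943.E7V.Block (D1 rho)
open Cfsg.Agent.H952.F4 (ev es)
open Cfsg.Agent.R2.T1 Cfsg.Agent.R2.T1.Art Cfsg.Agent.R2.T1.Odd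
open Cfsg.Agent.R2.T1.Msk (P_fix P_val Op Db e3 ee)

universe u

section X
variable {F : Type u} [Field F] {n : ℕ} [NeZero n] {W : Type*} [AddCommGroup W] [Module F W]
  {ρ : Representation F ↥(alternatingGroup (Fin n)) W}

theorem lb_pow (hn : 10 ≤ n) (v : W) : ρ (P n lb) (ρ (P n lb) (ρ (P n lb) v)) = v := by
  have h : P n lb * (P n lb * P n lb) = 1 := by
    rw [← P_append (m := 5) (by omega) (l := lb) (l' := lb) (by decide) (by decide),
      ← P_append (m := 5) (by omega) (l := lb) (l' := lb ++ lb) (by decide) (by decide),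
      (P_eq_iff (m := 5) (by omega) (l := lb ++ (lb ++ lb)) (l' := []) (by decide) (by decide)).2 (by decide), P_nil]
  rw [← rho_mul', ← rho_mul', mul_assoc, h, map_one]
  rfl

theorem XX_t (hn : 10 ≤ n) {v : W} (hv : v ∈ XX ρ) : ρ (P n ltt) v ∈ XX ρ := by
  rw [mem_XX] at hv ⊢
  have h1 : ∀ w, ρ (P n la) (ρ (P n ltt) w) = ρ (P n ltt) (ρ (P n la) (ρ (P n la) w)) := by
    intro w
    rw [← rho_mul', ← rho_mul', ← rho_mul', mul_assoc (P n ltt), ← P_append (m := 6) (by omega) (l := la) (l' := ltt) (by decide) (by decide),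
      ← P_append (m := 6) (by omega) (l := la) (l' := la) (by decide) (by decide),
      ← P_append (m := 6) (by omega) (l := ltt) (l' := la ++ la) (by decide) (by decide),
      (P_eq_iff (m := 6) (by omega) (l := la ++ ltt) (l' := ltt ++ (la ++ la)) (by decide) (by decide)).2 (by decide)]
  have h2 : ∀ w, ρ (P n lb) (ρ (P n ltt) w) = ρ (P n ltt) (ρ (P n lb) (ρ (P n lb) w)) := by
    intro w
    rw [← rho_mul', ← rho_mul', ← rho_mul', mul_assoc (P n ltt), ← P_append (m := 6) (by omega) (l := lb) (l' := ltt) (by decide) (by decide),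
      ← P_append (m := 6) (by omega) (l := lb) (l' := lb) (by decide) (by decide),
      ← P_append (m := 6) (by omega) (l := ltt) (l' := lb ++ lb) (by decide) (by decide),
      (P_eq_iff (m := 6) (by omega) (l := lb ++ ltt) (l' := ltt ++ (lb ++ lb)) (by decide) (by decide)).2 (by decide)]
  refine ⟨by rw [h1, hv.1, hv.1], ?_⟩
  rw [h2, h2, lb_pow hn, ← map_add, ← map_add]
  have h3 : v + ρ (P n lb) (ρ (P n lb) v) + ρ (P n lb) v = 0 := by
    rw [← hv.2]; abel
  rw [h3, map_zero]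

variable [FiniteDimensional F W] (h3 : (3 : F) ≠ 0) (h2' : ∀ w : W, w + w = 0) (hn : 10 ≤ n)
  (hla : ev (ρ (P n la)) 1 = 20) (h567 : ev (ρ (P n l567)) 1 = 20)
  (hE1 : finrank F ↥(inv ρ (Tg n gE1)) = 16) (hE2 : finrank F ↥(inv ρ (Tg n gE2)) = 16)
  (hE3 : finrank F ↥(inv ρ (Tg n gE3)) = 16) (hB : finrank F ↥(inv ρ (Tg n gB27)) = 12)
  (h53 : ev (ρ (P n l53)) 1 ≤ 12)

include h3 h2' hn hla h567 hE1 hE2 hE3 hB h53

theorem exists_u : ∃ u : W, u ≠ 0 ∧ (∀ a : ↥(alternatingGroup (Fin n)), (∀ i : Fin n, i.val < 2 → (a : Perm (Fin n)) i = i) →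
    ρ a u = u) ∧ u + ρ (P n lb) u + ρ (P n lb) (ρ (P n lb) u) = 0 := by
  have hn5 : 5 ≤ n := by omega
  have hX : XX ρ ≠ ⊥ := by
    intro h
    have h1 := dim_XX (ρ := ρ) h3 hn hla hE1
    rw [h, finrank_bot] at h1
    omega
  obtain ⟨v, hv, hv0⟩ := Submodule.exists_mem_ne_zero_of_ne_bot hX
  have htt : ∀ w, ρ (P n ltt) (ρ (P n ltt) w) = w := by
    intro w
    rw [← rho_mul', ← P_append (m := 5) (by omega) (l := ltt) (l' := ltt) (by decide) (by decide),
      (P_eq_iff (m := 5) (by omega) (l := ltt ++ ltt) (l' := []) (by decide) (by decide)).2 (by decide), P_nil, map_one]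
    rfl
  obtain ⟨u, hu, hu0, hut⟩ : ∃ u ∈ XX ρ, u ≠ 0 ∧ ρ (P n ltt) u = u := by
    by_cases h : ρ (P n ltt) v = v
    · exact ⟨v, hv, hv0, h⟩
    · refine ⟨v + ρ (P n ltt) v, (XX ρ).add_mem hv (XX_t hn hv), ?_, ?_⟩
      · intro h0
        apply h
        rw [← (neg_eq_of_add_eq_zero_right h0)]
        exact neg_eq_of_add_eq_zero_left (h2' v)
      · rw [map_add, htt]
        exact add_comm _ _
  have hfix3 : ∀ a : ↥(alternatingGroup (Fin n)), (∀ i : Fin n, i.val < 3 → (a : Perm (Fin n)) i = i) → ρ a u = u :=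
    fun a ha => XX_fix h3 hn hla hE1 hE2 hB hu ha
  have hu3 := (mem_XX.1 hu).2
  have h567' : ρ (P n l567) u = u := hfix3 _ (by
    intro i hi
    apply Fin.ext
    rw [P_val (m := 8) (by omega) (by decide)]
    have : i.val = 0 ∨ i.val = 1 ∨ i.val = 2 := by omega
    rcases this with h | h | h <;> rw [h] <;> decide)
  have heps := eps_Z h3 h2' hn h567 hE3 h53 h567' hu3
  have hd : ρ (P n ld) u = u := f5 hn5 h2' hut heps (by rw [Op_e3 hn5]; exact hu3)
  refine ⟨u, hu0, ?_, hu3⟩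
  intro a ha
  let S : Subgroup ↥(alternatingGroup (Fin n)) :=
    { carrier := {a | ρ a u = u}
      one_mem' := by show ρ 1 u = u; rw [map_one]; rfl
      mul_mem' := by
        intro x y hx hy
        show ρ (x * y) u = u
        rw [rho_mul', show ρ y u = u from hy]
        exact hx
      inv_mem' := fun hx => rho_inv_fix hx }
  set p3 : Fin n := ⟨3, by omega⟩ with hp3
  set p4 : Fin n := ⟨4, by omega⟩ with hp4
  have h34 : p3 ≠ p4 := by simp [hp3, hp4]
  have hof : ∀ (k : ℕ) (hk : k < n), Fin.ofNat n k = ⟨k, hk⟩ := fun k hk => Fin.ext (val_ofNat' hk)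
  have hval : ∀ x y : Fin n, x.val ≠ y.val → x ≠ y := fun x y h h' => h (by rw [h'])
  show a ∈ S
  refine gen_alt S (fun i => 2 ≤ i.val) h34 (by show 2 ≤ 3; norm_num) ?_ a (fun i hi => ha i (by omega))
  intro k hk hk0 a hak
  by_cases hk4 : k = p4
  · have h1 : a = 1 := Subtype.ext (by rw [hak, hk4, swap_mul_self]; rfl)
    rw [h1]; exact one_mem S
  by_cases hk2 : k.val = 2
  · have hk' : k = ⟨2, by omega⟩ := Fin.ext hk2
    have h1 : a = (P n ld)⁻¹ := by
      apply Subtype.ext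
      rw [hak]
      show _ = ((P n ld : ↥(alternatingGroup (Fin n))) : Perm (Fin n))⁻¹
      rw [coe_P (m := 6) (by omega) (by decide)]
      unfold ld
      rw [pm_cons, pm_cons, pm_nil, mul_one, hof 2 (by omega), hof 3 (by omega), hof 4 (by omega), mul_inv_rev, swap_inv,
        swap_inv, hk', swap_comm p3 ⟨2, by omega⟩]
    rw [h1]
    exact inv_mem hd
  · apply hfix3
    intro i hi
    rw [hak, Perm.mul_apply]
    have hk3 : k.val ≠ 3 := fun h => hk0 (Fin.ext h)
    rw [swap_apply_of_ne_of_ne (a := p3) (b := k) (hval _ _ (by show i.val ≠ 3; omega)) (hval _ _ (by omega)),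
      swap_apply_of_ne_of_ne (a := p3) (b := p4) (hval _ _ (by show i.val ≠ 3; omega)) (hval _ _ (by show i.val ≠ 4; omega))]

end X

end Cfsg.Agent.R2.T1.T2p
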