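import Cfsg.Agent.R2.T1.T2p.T2d
import Cfsg.Agent.R2.T1.T2p.Final
import Cfsg.Agent.R2.T1.Inf.Form

/-!
# T1 (S5771, p = 2): the pattern (20, 32, 16, 20, *) for `n ≥ 10`, step 3 (helper25)

* `Phi_zero` : the combination of the values of the moment map vanishes;
* `heq_T2` : the values of the moment map at the translates are equal;
* `n_le` : `n ≤ 22`;
* `t2_false`.
-/

set_option autoImplicit false
set_option maxRecDepth 100000

namespace Cfsg.Agent.R2.T1.T2p

open Cfsg Cfsg.Lie Module Equiv Equiv.Perm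
open Cfsg.Agent.H943.E7V.Block (D1 rho)
open Cfsg.Agent.H952.F4 (ev es MaxAlt)
open Cfsg.Agent.R2.T1 Cfsg.Agent.R2.T1.Art Cfsg.Agent.R2.T1.Odd Cfsg.Agent.R2.T1.Mu2 Cfsg.Agent.R2.PX
open Cfsg.Agent.R2.T1.Msk (P_fix P_val)

universe u

section phi
variable {F : Type u} [Field F]

/-- the combination of the values of the moment map -/
noncomputable def PhiF (x : Gh F) (ω : AlgebraicClosure F) (w : D1 → F) (z : chevE7.Idx → F) : AlgebraicClosure F :=
  algebraMap F (AlgebraicClosure F) (Mu F w z) + ω * algebraMap F (AlgebraicClosure F) (Mu F (V F x w) z) +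
    ω ^ 2 * algebraMap F (AlgebraicClosure F) (Mu F (V F x (V F x w)) z)

theorem V_comm {x g : Gh F} (hg : g * x = x * g) (w : D1 → F) : V F x (V F g w) = V F g (V F x w) := by
  rw [← V_mul, ← V_mul, hg]

theorem Mu_L (g : Gh F) (w : D1 → F) (z : chevE7.Idx → F) : Mu F (V F g w) z = Mu F w (L F g⁻¹ z) := by
  rw [Mu_V', LinearMap.comp_apply]

theorem PhiF_comm {x g : Gh F} (hg : g * x = x * g) (ω : AlgebraicClosure F) (w : D1 → F) (z : chevE7.Idx → F) :
    PhiF x ω (V F g w) z = PhiF x ω w (L F g⁻¹ z) := by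
  unfold PhiF
  rw [V_comm hg, V_comm hg, Mu_L g w, Mu_L g (V F x w), Mu_L g (V F x (V F x w))]

theorem PhiF_x {x : Gh F} (hx : x ^ 3 = 1) {ω : AlgebraicClosure F} (hω : ω ^ 2 + ω + 1 = 0) (w : D1 → F) (z : chevE7.Idx → F) :
    PhiF x ω (V F x w) z = ω ^ 2 * PhiF x ω w z := by
  have hω3 : ω ^ 3 = 1 := by linear_combination (ω - 1) * hω
  have e1 : V F x (V F x (V F x w)) = w := by
    rw [← V_mul, ← V_mul]
    have h : x * x * x = 1 := by rw [← hx, pow_succ, pow_two]
    rw [h, V_one]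
  unfold PhiF
  rw [e1]
  generalize algebraMap F (AlgebraicClosure F) (Mu F w z) = m0
  generalize algebraMap F (AlgebraicClosure F) (Mu F (V F x w) z) = m1
  generalize algebraMap F (AlgebraicClosure F) (Mu F (V F x (V F x w)) z) = m2
  linear_combination (-m1 - ω * m2) * hω3

/-- **the combination vanishes** -/
theorem Phi_zero [Finite F] (h2 : (2 : F) = 0) {x a b s : Gh F} (hx : x ^ 3 = 1) (h32 : ev (V F x) 1 = 32)
    (hbx : b * x = x * b) (hsx : s * x = x * s) (hbs : b * s = s * a) {u : D1 → F}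
    (hbu : V F b u = u) (hxu : V F x u = V F a u) (h0 : u + V F x u + V F x (V F x u) = 0) :
    ∃ ω : AlgebraicClosure F, ω ^ 2 + ω + 1 = 0 ∧ ∀ z, PhiF x ω u z = 0 := by
  obtain ⟨ω, l, hω, hl⟩ := line_F h2 hx h32
  refine ⟨ω, hω, ?_⟩
  have h2K : (2 : AlgebraicClosure F) = 0 := by
    have h := congrArg (algebraMap F (AlgebraicClosure F)) h2
    rwa [map_ofNat, map_zero] at h
  have hω1 : ω ^ 2 ≠ 1 := by
    intro h
    have h3 : ω = 0 := by linear_combination hω - h - h2K
    rw [h3] at hω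
    norm_num at hω
  obtain ⟨q1, hq1⟩ := hl u h0
  have hs0 : V F s u + V F x (V F s u) + V F x (V F x (V F s u)) = 0 := by
    rw [V_comm hsx, V_comm hsx, ← map_add, ← map_add, h0, map_zero]
  obtain ⟨q2, hq2⟩ := hl (V F s u) hs0
  have hq1' : ∀ z, PhiF x ω u z = q1 * l z := hq1
  have hq2' : ∀ z, PhiF x ω (V F s u) z = q2 * l z := hq2
  by_contra hcon
  push Not at hcon
  obtain ⟨z0, hz0'⟩ := hcon
  have hq10 : q1 ≠ 0 := by
    intro h
    rw [hq1', h, zero_mul] at hz0'
    exact hz0' rfl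
  have hl0 : l z0 ≠ 0 := by
    intro h
    rw [hq1', h, mul_zero] at hz0'
    exact hz0' rfl
  have hq20 : q2 ≠ 0 := by
    intro h
    have h1 := PhiF_comm hsx ω u (L F s z0)
    have h3 : L F s⁻¹ (L F s z0) = z0 := by
      rw [← Module.End.mul_apply, ← map_mul, inv_mul_cancel, map_one]; rfl
    rw [h3, hq2', h, zero_mul] at h1
    exact hz0' h1.symm
  have k1 : ∀ z, l (L F b⁻¹ z) = l z := by
    intro z
    have h1 := PhiF_comm hbx ω u z
    rw [hbu, hq1', hq1'] at h1
    exact (mul_left_cancel₀ hq10 h1).symm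
  have k2 : ∀ z, l (L F b⁻¹ z) = ω ^ 2 * l z := by
    intro z
    have h1 := PhiF_comm hbx ω (V F s u) z
    have h3 : V F b (V F s u) = V F x (V F s u) := by
      rw [V_comm hsx, ← V_mul, hbs, V_mul, hxu]
    rw [h3, PhiF_x hx hω, hq2', hq2'] at h1
    have h4 : q2 * (ω ^ 2 * l z) = q2 * l (L F b⁻¹ z) := by rw [← h1]; ring
    exact (mul_left_cancel₀ hq20 h4).symm
  have h5 := k2 z0
  rw [k1] at h5
  apply hω1
  have h6 : (1 : AlgebraicClosure F) * l z0 = ω ^ 2 * l z0 := by rw [one_mul]; exact h5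
  exact (mul_right_cancel₀ hl0 h6).symm

end phi

/-- `(012)(345)`, `(03)(14)(25)(67)` -/
def lxx : List (ℕ × ℕ) := [(0, 1), (1, 2), (3, 4), (4, 5)]
def lss : List (ℕ × ℕ) := [(0, 3), (1, 4), (2, 5), (6, 7)]

section heq
variable {F : Type u} [Field F] {n : ℕ} [NeZero n] {ψ : ↥(alternatingGroup (Fin n)) →* Gh F}

theorem word_eq {m : ℕ} (hm : m ≤ n) {x y z w : List (ℕ × ℕ)} (hx : vl m x = true) (hy : vl m y = true) (hz : vl m z = true)
    (hw : vl m w = true) (h : cd m (x ++ y) = cd m (z ++ w)) : ψ (P n x) * ψ (P n y) = ψ (P n z) * ψ (P n w) := by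
  rw [← map_mul, ← map_mul, ← P_append hm hx hy, ← P_append hm hz hw,
    (P_eq_iff hm (vl_append hx hy) (vl_append hz hw)).2 h]

theorem P_at {m : ℕ} (hm : m ≤ n) {l : List (ℕ × ℕ)} (h : vl m l = true) {i j : Fin n} (hij : ap l i.val = j.val) :
    ((P n l : ↥(alternatingGroup (Fin n))) : Perm (Fin n)) i = j :=
  Fin.ext ((P_val hm h i).trans hij)

/-- **the values of the moment map are equal** -/
theorem heq_T2 [Finite F] (h2 : (2 : F) = 0) (hn : 10 ≤ n) (h32 : ev (V F (ψ (P n lxx))) 1 = 32) {o p q : Fin n}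
    (ho : o.val = 0) (hp : p.val = 1) (hq : q.val = 2) {u : D1 → F} (hu : u ∈ US ψ o p)
    (h0 : u + V F (ψ (P n lb)) u + V F (ψ (P n lb)) (V F (ψ (P n lb)) u) = 0) :
    W ψ o p u o p + W ψ o p u p q + W ψ o p u q o = 0 ∧ Mu F (W ψ o p u o p) = Mu F (W ψ o p u p q) := by
  have hn8 : 8 ≤ n := by omega
  have hop : o ≠ p := fun h => by rw [h, hp] at ho; omega
  have hoq : o ≠ q := fun h => by rw [h, hq] at ho; omega
  have hpq : p ≠ q := fun h => by rw [h, hq] at hp; omega
  -- the translates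
  have w1 : V F (ψ (P n lb)) u = W ψ o p u p q := W_eq hu
    (P_at (m := 8) hn8 (by decide) (by rw [ho, hp]; decide)) (P_at (m := 8) hn8 (by decide) (by rw [hp, hq]; decide))
  have w2 : V F (ψ (P n lb)) (V F (ψ (P n lb)) u) = W ψ o p u q o := by
    rw [w1, W_act (by omega) hop hu _ hpq, P_at (m := 8) hn8 (i := p) (j := q) (by decide) (by rw [hp, hq]; decide),
      P_at (m := 8) hn8 (i := q) (j := o) (by decide) (by rw [ho, hq]; decide)]
  have hself : W ψ o p u o p = u := W_self hu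
  have hT0 : W ψ o p u o p + W ψ o p u p q + W ψ o p u q o = 0 := by rw [hself, ← w1, ← w2]; exact h0
  have hT : ∀ i j k : Fin n, i ≠ j → j ≠ k → i ≠ k → W ψ o p u i j + W ψ o p u j k + W ψ o p u k i = 0 :=
    fun i j k h1 h3 h4 => tri (by omega) hop hu hoq hpq hT0 h1 h3 h4
  have hsym : ∀ i j : Fin n, i ≠ j → W ψ o p u i j = W ψ o p u j i := fun i j h => W_symm h2 (by omega) hT h
  refine ⟨hT0, ?_⟩
  -- the elements
  have hbu : V F (ψ (P n la)) u = u := hu _
    (P_at (m := 8) hn8 (by decide) (by rw [ho]; decide)) (P_at (m := 8) hn8 (by decide) (by rw [hp]; decide))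
  have hxab : ψ (P n lxx) = ψ (P n lb) * ψ (P n la) := by
    rw [← map_mul, ← P_append hn8 (by decide) (by decide)]
    rfl
  have hab : ψ (P n lb) * ψ (P n la) = ψ (P n la) * ψ (P n lb) :=
    word_eq hn8 (by decide) (by decide) (by decide) (by decide) (by decide)
  have hxu : V F (ψ (P n lxx)) u = V F (ψ (P n lb)) u := by rw [hxab, V_mul, hbu]
  have hxu2 : V F (ψ (P n lxx)) (V F (ψ (P n lxx)) u) = V F (ψ (P n lb)) (V F (ψ (P n lb)) u) := by
    rw [hxu, hxab, V_mul, ← V_mul (ψ (P n la)), ← hab, V_mul, hbu]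
  obtain ⟨ω, hω, hΦ⟩ := Phi_zero h2 (x := ψ (P n lxx)) (a := ψ (P n lb)) (b := ψ (P n la)) (s := ψ (P n lss))
    (by rw [← map_pow, P_pow_one hn8 (m := 8) (by decide) (by decide), map_one]) h32
    (word_eq hn8 (by decide) (by decide) (by decide) (by decide) (by decide))
    (word_eq hn8 (by decide) (by decide) (by decide) (by decide) (by decide))
    (word_eq hn8 (by decide) (by decide) (by decide) (by decide) (by decide)) hbu hxu (by rw [hxu2, hxu]; exact h0)
  have h2K : (2 : AlgebraicClosure F) = 0 := by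
    have h := congrArg (algebraMap F (AlgebraicClosure F)) h2
    rwa [map_ofNat, map_zero] at h
  refine LinearMap.ext fun z => ?_
  have hΦ' : ∀ z, algebraMap F (AlgebraicClosure F) (Mu F u z) + ω * algebraMap F (AlgebraicClosure F) (Mu F (W ψ o p u p q) z) +
      ω ^ 2 * algebraMap F (AlgebraicClosure F) (Mu F (W ψ o p u q o) z) = 0 := by
    intro z
    have h := hΦ z
    unfold PhiF at h
    rw [hxu2, hxu, w2, w1] at h
    exact h
  have e1 := hΦ' z
  -- the element `(01)(34)`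
  set t := ψ (P n ltt) with ht
  have t1 : V F t u = u := by
    have h3 := W_act (by omega) hop hu (P n ltt) hop
    rw [hself, P_at (m := 8) hn8 (i := o) (j := p) (by decide) (by rw [ho, hp]; decide),
      P_at (m := 8) hn8 (i := p) (j := o) (by decide) (by rw [ho, hp]; decide), hsym p o hop.symm, hself] at h3
    exact h3
  have t2 : V F t (W ψ o p u p q) = W ψ o p u q o := by
    rw [W_act (by omega) hop hu (P n ltt) hpq, P_at (m := 8) hn8 (i := p) (j := o) (by decide) (by rw [ho, hp]; decide),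
      P_at (m := 8) hn8 (i := q) (j := q) (by decide) (by rw [hq]; decide), hsym o q hoq]
  have t3 : V F t (W ψ o p u q o) = W ψ o p u p q := by
    rw [W_act (by omega) hop hu (P n ltt) hoq.symm, P_at (m := 8) hn8 (i := o) (j := p) (by decide) (by rw [ho, hp]; decide),
      P_at (m := 8) hn8 (i := q) (j := q) (by decide) (by rw [hq]; decide), hsym q p hpq.symm]
  have e2 := hΦ' (L F t⁻¹ z)
  rw [← Mu_L, ← Mu_L, ← Mu_L, t1, t2, t3] at e2
  rw [hself]
  exact phi_eq h2K (algebraMap F (AlgebraicClosure F)) hω e1 e2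

end heq

end Cfsg.Agent.R2.T1.T2p
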