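import Cfsg.Agent.R2.T1.T2p.K9b
import Cfsg.Agent.R2.T1.T3.Core2
import Cfsg.Agent.R2.T1.Inf.Form

/-!
# T1 (S5771, p = 2): the pattern (32, 20, 16, 8, 8) for `n ≥ 9` (helper25)

* `SS ρ m` : the vectors fixed by the even permutations of the first `m` points;
* `up_step` : `SS ρ m ≤ SS ρ (m + 1)` for `m ≥ 8`, if `ev l7 ≤ ev zz`;
* `t3_false`.
-/

set_option autoImplicit false
set_option maxRecDepth 100000

namespace Cfsg.Agent.R2.T1.Msk

open Cfsg Cfsg.Lie Module Equiv Equiv.Perm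
open Cfsg.Agent.H943.E7V.Block (D1 rho)
open Cfsg.Agent.H952.F4 (ev es)
open Cfsg.Agent.R2.T1 Cfsg.Agent.R2.T1.Art Cfsg.Agent.R2.T1.Odd

universe u

section up
variable {n : ℕ} {F : Type*} [Field F] {W : Type*} [AddCommGroup W] [Module F W]

/-- the vectors fixed by the even permutations of the first `m` points -/
def SS (ρ : Representation F ↥(alternatingGroup (Fin n)) W) (m : ℕ) : Submodule F W where
  carrier := {v | ∀ a : ↥(alternatingGroup (Fin n)), (∀ i : Fin n, m ≤ i.val → (a : Perm (Fin n)) i = i) → ρ a v = v}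
  add_mem' := fun {a b} ha hb g hg => by rw [map_add, ha g hg, hb g hg]
  zero_mem' := fun g _ => map_zero _
  smul_mem' := fun c a ha g hg => by rw [map_smul, ha g hg]

variable {ρ : Representation F ↥(alternatingGroup (Fin n)) W}

theorem mem_SS {m : ℕ} {v : W} : v ∈ SS ρ m ↔ ∀ a : ↥(alternatingGroup (Fin n)),
    (∀ i : Fin n, m ≤ i.val → (a : Perm (Fin n)) i = i) → ρ a v = v := Iff.rfl

/-- even permutations with small support -/
theorem exists_sw (hn : 9 ≤ n) {p i : Fin n} (hp : 7 ≤ p.val) (hip : i ≠ p) : ∃ g : ↥(alternatingGroup (Fin n)),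
    (g : Perm (Fin n)) p = i ∧ ∀ j : Fin n, 3 ≤ j.val → j ≠ p → j ≠ i → (g : Perm (Fin n)) j = j := by
  obtain ⟨c, d, hcd, hci, hdi, hc, hd⟩ : ∃ c d : Fin n, c ≠ d ∧ c ≠ i ∧ d ≠ i ∧ c.val < 3 ∧ d.val < 3 := by
    by_cases h0 : i.val = 0
    · exact ⟨⟨1, by omega⟩, ⟨2, by omega⟩, by simp, fun h => by rw [← h] at h0; simp at h0,
        fun h => by rw [← h] at h0; simp at h0, by simp, by simp⟩
    · by_cases h1 : i.val = 1
      · exact ⟨⟨0, by omega⟩, ⟨2, by omega⟩, by simp, fun h => by rw [← h] at h0; simp at h0,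
          fun h => by rw [← h] at h1; simp at h1, by simp, by simp⟩
      · exact ⟨⟨0, by omega⟩, ⟨1, by omega⟩, by simp, fun h => by rw [← h] at h0; simp at h0,
          fun h => by rw [← h] at h1; simp at h1, by simp, by simp⟩
  have hcp : c ≠ p := fun h => by rw [h] at hc; omega
  have hdp : d ≠ p := fun h => by rw [h] at hd; omega
  refine ⟨⟨swap p i * swap c d, ?_⟩, ?_, ?_⟩
  · rw [mem_alternatingGroup, Perm.sign_mul, sign_swap hip.symm, sign_swap hcd]
    rfl
  · show swap p i (swap c d p) = i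
    rw [swap_apply_of_ne_of_ne hcp.symm hdp.symm, swap_apply_left]
  · intro j hj h1 h2
    show swap p i (swap c d j) = j
    have h3 : j ≠ c := fun h => by rw [h] at hj; omega
    have h4 : j ≠ d := fun h => by rw [h] at hj; omega
    rw [swap_apply_of_ne_of_ne h3 h4, swap_apply_of_ne_of_ne h1 h2]

/-- the sum over a cyclic group vanishes on `w + T w` -/
theorem geom_zero (h2 : ∀ w : W, w + w = 0) {T : Module.End F W} {N : ℕ} (hT : T ^ N = 1) (w : W) :
    (∑ k ∈ Finset.range N, T ^ k) (w + T w) = 0 := by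
  have h1 : (∑ k ∈ Finset.range N, T ^ k) * T = T * ∑ k ∈ Finset.range N, T ^ k := by
    rw [Finset.sum_mul, Finset.mul_sum]
    refine Finset.sum_congr rfl fun k _ => ?_
    rw [← pow_succ, ← pow_succ']
  have h3 : (∑ k ∈ Finset.range N, T ^ k) (T w) = T ((∑ k ∈ Finset.range N, T ^ k) w) := by
    rw [← Module.End.mul_apply, h1, Module.End.mul_apply]
  rw [map_add, h3, geom_fix hT]
  exact h2 _

variable [NeZero n]

theorem P_fix {m : ℕ} (hm : m ≤ n) {l : List (ℕ × ℕ)} (h : vl m l = true) {i : Fin n} (hi : m ≤ i.val) :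
    ((P n l : ↥(alternatingGroup (Fin n))) : Perm (Fin n)) i = i := by
  apply Fin.ext
  rw [coe_P hm h, pm_apply ((vl_iff.1 h).2.mono hm), ap_ge (vl_iff.1 h).2 hi]

theorem P_val {m : ℕ} (hm : m ≤ n) {l : List (ℕ × ℕ)} (h : vl m l = true) (i : Fin n) :
    (((P n l : ↥(alternatingGroup (Fin n))) : Perm (Fin n)) i).val = ap l i.val := by
  rw [coe_P hm h, pm_apply ((vl_iff.1 h).2.mono hm)]

variable [FiniteDimensional F W]

/-- **from `m` to `m + 1` points** -/
theorem up_step (h2 : ∀ w : W, w + w = 0) (hn : 9 ≤ n) (heq : ev (ρ (P n Odd.l7)) 1 ≤ ev (ρ (P n zz)) 1) {m : ℕ} (hm : 8 ≤ m)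
    (hmn : m < n) : SS ρ m ≤ SS ρ (m + 1) := by
  classical
  intro v hv
  set o : Fin n := ⟨m, hmn⟩ with ho
  have hmul : ∀ a b : ↥(alternatingGroup (Fin n)), ∀ w, ρ (a * b) w = ρ a (ρ b w) := fun a b w => by
    rw [map_mul, Module.End.mul_apply]
  let Fx : ↥(alternatingGroup (Fin n)) → Prop := fun a => ∀ j : Fin n, m + 1 ≤ j.val → (a : Perm (Fin n)) j = j
  have hFmul : ∀ a b, Fx a → Fx b → Fx (a * b) := by
    intro a b ha hb j hj
    show (a : Perm (Fin n)) ((b : Perm (Fin n)) j) = j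
    rw [hb j hj, ha j hj]
  let Y : Fin n → W := fun i => if h : ∃ a : ↥(alternatingGroup (Fin n)), (a : Perm (Fin n)) o = i ∧ Fx a then ρ h.choose v else 0
  have hY : ∀ (a : ↥(alternatingGroup (Fin n))) (i : Fin n), (a : Perm (Fin n)) o = i → Fx a → ρ a v = Y i := by
    intro a i ha hf
    have hex : ∃ a : ↥(alternatingGroup (Fin n)), (a : Perm (Fin n)) o = i ∧ Fx a := ⟨a, ha, hf⟩
    obtain ⟨hb, hbf⟩ := hex.choose_spec
    show ρ a v = if h : ∃ a : ↥(alternatingGroup (Fin n)), (a : Perm (Fin n)) o = i ∧ Fx a then ρ h.choose v else 0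
    rw [dif_pos hex]
    set b := hex.choose with hbd
    have h1 : ρ (b⁻¹ * a) v = v := by
      apply hv
      intro j hj
      show ((b : Perm (Fin n))⁻¹) ((a : Perm (Fin n)) j) = j
      rw [Perm.inv_eq_iff_eq]
      rcases Nat.eq_or_lt_of_le hj with h | h
      · have hjo : j = o := Fin.ext h.symm
        rw [hjo, ha, hb]
      · rw [hf j h, hbf j h]
    conv_rhs => rw [← h1]
    rw [← hmul, mul_inv_cancel_left]
  have hex : ∀ i : Fin n, i.val ≤ m → ∃ a : ↥(alternatingGroup (Fin n)), (a : Perm (Fin n)) o = i ∧ Fx a := by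
    intro i hi
    by_cases hio : i = o
    · exact ⟨1, hio.symm, fun _ _ => rfl⟩
    · obtain ⟨g, g1, g2⟩ := exists_sw hn (p := o) (i := i) (by show 7 ≤ m; omega) hio
      refine ⟨g, g1, fun j hj => g2 j (by omega) (fun h => ?_) (fun h => ?_)⟩
      · rw [h] at hj; simp [ho] at hj
      · rw [h] at hj; omega
  have hact : ∀ (b : ↥(alternatingGroup (Fin n))) (i : Fin n), Fx b → i.val ≤ m → ρ b (Y i) = Y ((b : Perm (Fin n)) i) := by
    intro b i hb hi
    obtain ⟨a, ha, hf⟩ := hex i hi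
    rw [← hY a i ha hf, ← hmul]
    exact hY _ _ (by show (b : Perm (Fin n)) ((a : Perm (Fin n)) o) = _; rw [ha]) (hFmul _ _ hb hf)
  have hYo : Y o = v := by
    rw [← hY 1 o rfl fun _ _ => rfl, map_one]; rfl
  set p7 : Fin n := ⟨7, by omega⟩ with hp7
  set p8 : Fin n := ⟨8, by omega⟩ with hp8
  have h78 : p7 ≠ p8 := by simp [hp7, hp8]
  -- `Y 7 = Y 8`
  have hzF : Fx (P n zz) := fun j hj => P_fix hn (m := 9) (by decide) (by omega)
  have hz8 : ((P n zz : ↥(alternatingGroup (Fin n))) : Perm (Fin n)) p8 = p7 := by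
    apply Fin.ext
    rw [P_val hn (m := 9) (by decide)]
    show ap zz 8 = 7
    decide
  have hzY : ρ (P n zz) (Y p8) = Y p7 := by rw [hact _ _ hzF (by show 8 ≤ m; exact hm), hz8]
  have hyF : Fx (P n Odd.l7) := fun j hj => P_fix (m := 7) (by omega) (by decide) (by omega)
  have hy : ∀ i : Fin n, 7 ≤ i.val → i.val ≤ m → ρ (P n Odd.l7) (Y i) = Y i := by
    intro i hi hi'
    rw [hact _ _ hyF hi', P_fix (m := 7) (by omega) (by decide) hi]
  have h0 : Y p8 + Y p7 = 0 := by
    refine K_inj hn h2 heq ?_ ?_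
    · rw [map_add, hy p7 le_rfl (by show 7 ≤ m; omega), hy p8 (by show 7 ≤ 8; omega) hm]
    · rw [e9_eq, Op_cyc ρ hn (gens := DK.gens) (i := 1) (by decide), ← hzY]
      exact geom_zero h2 (by rw [← map_pow, P_pow_one hn (m := 9) (by decide) (by decide), map_one]) _
  have h1 : Y p7 = Y p8 := by
    have h3 : -Y p8 = Y p8 := neg_eq_of_add_eq_zero_left (h2 _)
    rw [← h3]
    exact (neg_eq_of_add_eq_zero_right h0).symm
  -- all translates are equal
  have hall : ∀ i : Fin n, i.val ≤ m → Y i = Y p8 := by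
    intro i hi
    by_cases hi8 : i = p8
    · rw [hi8]
    by_cases hi7 : i = p7
    · rw [hi7, h1]
    obtain ⟨g, g1, g2⟩ := exists_sw hn (p := p7) (i := i) le_rfl hi7
    have hgF : Fx g := fun j hj => g2 j (by omega) (fun h => by rw [h] at hj; simp [hp7] at hj; omega)
      (fun h => by rw [h] at hj; omega)
    have h3 := hact g p7 hgF (by show 7 ≤ m; omega)
    rw [g1, h1, hact g p8 hgF hm, g2 p8 (by show 3 ≤ 8; omega) h78.symm (Ne.symm hi8)] at h3
    exact h3.symm
  intro a ha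
  have h3 := hact a o ha (by show m ≤ m; exact le_rfl)
  rw [hYo] at h3
  rw [h3]
  have h4 : (((a : Perm (Fin n)) o : Fin n)).val ≤ m := by
    by_contra hcon
    have h5 := ha ((a : Perm (Fin n)) o) (by omega)
    have h6 := (a : Perm (Fin n)).injective h5
    rw [h6] at hcon
    exact hcon le_rfl
  rw [hall _ h4, ← hall o (by show m ≤ m; exact le_rfl), hYo]

theorem SS_eight (h2 : ∀ w : W, w + w = 0) (hn : 9 ≤ n) (heq : ev (ρ (P n Odd.l7)) 1 ≤ ev (ρ (P n zz)) 1)
    (hfix : Representation.invariants ρ = ⊥) : SS ρ 8 = ⊥ := by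
  have h1 : ∀ m, 8 ≤ m → m ≤ n → SS ρ 8 ≤ SS ρ m := by
    intro m hm
    induction m, hm using Nat.le_induction with
    | base => exact fun _ => le_rfl
    | succ m hm ih => exact fun h => (ih (by omega)).trans (up_step h2 hn heq hm (by omega))
  rw [eq_bot_iff, ← hfix]
  intro v hv
  have h3 := h1 n (by omega) le_rfl hv
  rw [Representation.mem_invariants]
  exact fun a => h3 a fun i hi => absurd i.2 (by omega)

end up

section t3
variable {F : Type u} [Field F] [Finite F] {n : ℕ} [NeZero n] {ψ : ↥(alternatingGroup (Fin n)) →* Gh F}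

/-- **the pattern (32, 20, 16, 8, 8) for `n ≥ 9`** -/
theorem t3_false (h2 : (2 : F) = 0) (hψ : ∀ a, ad F (ψ a) = 1 → a = 1) (hn : 9 ≤ n)
    (hfix : Representation.invariants (MonoidHom.comp (V F) ψ : Representation F ↥(alternatingGroup (Fin n)) (D1 → F)) = ⊥)
    (h3 : ∀ a : ↥(alternatingGroup (Fin n)), (a : Perm (Fin n)).cycleType = {3} → ev (V F (ψ a)) 1 = 32)
    (h33 : ∀ a : ↥(alternatingGroup (Fin n)), (a : Perm (Fin n)).cycleType = {3, 3} → ev (V F (ψ a)) 1 = 20)
    (h5 : ∀ a : ↥(alternatingGroup (Fin n)), (a : Perm (Fin n)).cycleType = {5} → ev (V F (ψ a)) 1 = 16)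
    (h7 : ∀ a : ↥(alternatingGroup (Fin n)), (a : Perm (Fin n)).cycleType = {7} → ev (V F (ψ a)) 1 = 8)
    (h53 : ∀ a : ↥(alternatingGroup (Fin n)), (a : Perm (Fin n)).cycleType = {5, 3} → ev (V F (ψ a)) 1 = 8) :
    False := by
  have hn8 : 8 ≤ n := by omega
  have h2' : ∀ w : D1 → F, w + w = 0 := fun w => by rw [← two_smul F w, h2, zero_smul]
  have hct : ∀ a : A8, ((emb8 hn8 a : ↥(alternatingGroup (Fin n))) : Perm (Fin n)).cycleType = (a : Perm (Fin 8)).cycleType := by
    intro a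
    rw [emb8_coe, Perm.cycleType_extendDomain]
  have hP : ∀ l : List (ℕ × ℕ), vl 8 l = true → ((P n l : ↥(alternatingGroup (Fin n))) : Perm (Fin n)).cycleType =
      (P 8 l : Perm (Fin 8)).cycleType := fun l hl => by rw [← emb8_P hn8 hl, hct]
  have e3 : ev (V F (ψ (P n l3))) 1 = 32 := h3 _ (by rw [hP _ (by decide), coe_P le_rfl (by decide)]; decide +kernel)
  have e33 : ev (V F (ψ (P n l33))) 1 = 20 := h33 _ (by rw [hP _ (by decide), coe_P le_rfl (by decide)]; decide +kernel)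
  have e7 : ev (V F (ψ (P n Odd.l7))) 1 = 8 := h7 _ (by rw [hP _ (by decide), coe_P le_rfl (by decide)]; decide +kernel)
  have ezz := ev_zz h2 hψ hn e3 e33 e7.le
  have hS : SS (MonoidHom.comp (V F) ψ : Representation F ↥(alternatingGroup (Fin n)) (D1 → F)) 8 = ⊥ :=
    SS_eight h2' hn (by show ev (V F (ψ (P n Odd.l7))) 1 ≤ ev (V F (ψ (P n zz))) 1; rw [e7, ezz]) hfix
  refine T3.core (ρ := (MonoidHom.comp (V F) (ψ.comp (emb8 hn8)) : Representation F (T3.A 8) (D1 → F))) (B := sf F) ?_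
  exact
    { two := h2
      dim := finrank_V
      nd := fun v hv => sf_nondeg' hv
      inv := fun g v w => sf_V (ψ (emb8 hn8 g)) v w
      symm := fun v w => by
        rw [sf_swap]
        have : sf F w v + sf F w v = 0 := by rw [← two_mul, h2, zero_mul]
        exact neg_eq_of_add_eq_zero_left this
      fix := by
        rw [eq_bot_iff, ← hS]
        intro v hv a ha
        obtain ⟨b, rfl⟩ := exists_emb8 hn8 ha
        exact (Representation.mem_invariants _ _).1 hv b
      c3 := fun a ha => h3 _ (by rw [hct, ha])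
      c33 := fun a ha => h33 _ (by rw [hct, ha])
      c5 := fun a ha => h5 _ (by rw [hct, ha])
      c7 := fun a ha => h7 _ (by rw [hct, ha])
      c53 := fun a ha => h53 _ (by rw [hct, ha]) }

end t3

end Cfsg.Agent.R2.T1.Msk
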